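import Cfsg.Agent.Stability.ZJ
import Cfsg.Agent.EvenLocal.ClosedNPC

/-!
The ZJ theorem for an axiomatically given family of abelian subgroups of a Sylow subgroup, and the
`p`-complement consequence for strictly constrained groups.
-/

set_option autoImplicit false
set_option linter.style.haveILetI false

namespace Cfsg.Agent.FusionSys.AxiomaticZJ

open Subgroup
open scoped commutatorElement Pointwise

universe u

variable {p : ℕ}

/-- A family of abelian subgroups of `S` with invariance and replacement. -/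
structure Family {G : Type u} [Group G] (S : Subgroup G) (mem : Set (Subgroup G)) : Prop where
  le' : ∀ A ∈ mem, A ≤ S
  comm' : ∀ A ∈ mem, IsMulCommutative A
  nonempty' : mem.Nonempty
  invariant : ∀ Q ≤ S, (∃ A ∈ mem, A ≤ Q) →
    normalizer (Q : Set G) ≤ normalizer ((sInf {A | A ∈ mem ∧ A ≤ Q} : Subgroup G) : Set G)
  replace' : ∀ B ≤ S, ⁅⁅B, B⁆, B⁆ = ⊥ → (∃ A ∈ mem, ⁅B, B⁆ ≤ A ∧ ¬ B ≤ A) →
    ∃ A ∈ mem, ⁅B, B⁆ ≤ A ∧ ¬ B ≤ A ∧ B ≤ normalizer (A : Set G)

variable {G : Type u} [Group G] {mem : Set (Subgroup G)}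

lemma Family.sInf_le {S : Subgroup G} (F : Family S mem) : sInf mem ≤ S := by
  obtain ⟨A, hA⟩ := F.nonempty'
  exact (_root_.sInf_le hA).trans (F.le' A hA)

lemma Family.sInf_comm {S : Subgroup G} (F : Family S mem) : IsMulCommutative ↥(sInf mem) := by
  obtain ⟨A, hA⟩ := F.nonempty'
  exact Modules.comm_mono (_root_.sInf_le hA) (F.comm' A hA)

lemma Family.le_normalizer_sInf {S : Subgroup G} (F : Family S mem) :
    S ≤ normalizer ((sInf mem : Subgroup G) : Set G) := by
  obtain ⟨A, hA⟩ := F.nonempty'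
  have h := F.invariant S le_rfl ⟨A, hA, F.le' A hA⟩
  rw [show {A | A ∈ mem ∧ A ≤ S} = mem from Set.ext fun B => and_iff_left_of_imp (F.le' B)] at h
  exact le_normalizer.trans h

/-- In a `p`-stable action the intersection of the family meets normal `p`-subgroups normally. -/
theorem Family.inf_normal [Finite G] [hp : Fact p.Prime]
    (hst : ∀ (P : Subgroup G) [P.Normal], IsPGroup p P → Cfsg.IsPStableOn p P) {S : Sylow p G}
    (F : Family (S : Subgroup G) mem) (B : Subgroup G) (hBn : B.Normal) (hBp : IsPGroup p B) :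
    (B ⊓ sInf mem).Normal := by
  induction h : Nat.card B using Nat.strong_induction_on generalizing B with
  | _ n ih =>
  subst h
  haveI := hBn
  set Z := sInf mem with hZ
  have hBS : B ≤ S := (PSolv.le_pCore hBn hBp).trans (PSolv.pCore_le_sylow S)
  have hSZ : (S : Subgroup G) ≤ normalizer (Z : Set G) := F.le_normalizer_sInf
  set B₁ := normalClosure ((B ⊓ Z : Subgroup G) : Set G) with hB₁
  have hB₁B : B₁ ≤ B := normalClosure_le_normal inf_le_left
  rcases hB₁B.lt_or_eq with hlt | heq
  · have h1 := ih _ (Set.ncard_lt_ncard hlt (Set.toFinite _)) B₁ normalClosure_normal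
      (hBp.to_le hB₁B) rfl
    rwa [show B₁ ⊓ Z = B ⊓ Z from le_antisymm (inf_le_inf_right _ hB₁B)
      (le_inf le_normalClosure inf_le_right)] at h1
  by_contra hnn
  have hne : B ≠ ⊥ := by
    rintro rfl
    exact hnn (by rw [bot_inf_eq]; infer_instance)
  have hlt : ⁅B, B⁆ < B := by
    haveI : Nontrivial B := (nontrivial_iff_ne_bot B).2 hne
    haveI := hBp.isNilpotent
    have h1 : commutator ↥B < ⊤ := (Group.IsSolvable.commutator_lt_top_of_nontrivial (↥B))
    have h2 : (commutator ↥B).map B.subtype = ⁅B, B⁆ := by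
      rw [_root_.commutator_def, map_commutator, ← MonoidHom.range_eq_map, range_subtype]
    rw [← h2]
    have h3 := (map_lt_map_iff_of_injective B.subtype_injective).2 h1
    rwa [← MonoidHom.range_eq_map, range_subtype] at h3
  set W := ⁅B, B⁆ ⊓ Z with hW
  haveI hWn : W.Normal :=
    ih _ (Set.ncard_lt_ncard hlt (Set.toFinite _)) ⁅B, B⁆ inferInstance (hBp.to_le hlt.le) rfl
  have hderW : ⁅B, B⁆ ≤ W := by
    let K : Subgroup G :=
      (centralizer ((B.map (QuotientGroup.mk' W) : Subgroup (G ⧸ W)) : Set (G ⧸ W))).comap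
        (QuotientGroup.mk' W)
    haveI : (B.map (QuotientGroup.mk' W)).Normal :=
      Normal.map hBn _ (QuotientGroup.mk'_surjective _)
    haveI : K.Normal := Normal.comap inferInstance _
    have h0 : B₁ ≤ K := by
      refine normalClosure_le_normal fun z hz => ?_
      obtain ⟨hzB, hzZ⟩ := Subgroup.mem_inf.1 hz
      rw [SetLike.mem_coe, mem_comap, mem_centralizer_iff]
      rintro _ ⟨c, hc, rfl⟩
      rw [← commutatorElement_eq_one_iff_mul_comm, ← map_commutatorElement, ← MonoidHom.mem_ker,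
        QuotientGroup.ker_mk', hW, Subgroup.mem_inf]
      refine ⟨commutator_mem_commutator hc hzB, ?_⟩
      rw [commutatorElement_def]
      exact mul_mem ((mem_normalizer_iff.1 (hSZ (hBS hc)) z).1 hzZ) (inv_mem hzZ)
    rw [heq] at h0
    refine commutator_le.2 fun x hx y hy => ?_
    rw [← QuotientGroup.ker_mk' W, MonoidHom.mem_ker, map_commutatorElement,
      commutatorElement_eq_one_iff_mul_comm]
    exact (mem_centralizer_iff.1 (h0 hx) _ ⟨y, hy, rfl⟩).symm
  have hder : ⁅B, B⁆ ≤ Z := hderW.trans inf_le_right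
  have hclass : ⁅⁅B, B⁆, B⁆ = ⊥ := by
    rw [commutator_eq_bot_iff_le_centralizer]
    refine hderW.trans fun w hw => ?_
    have h0 : B₁ ≤ centralizer (W : Set G) :=
      normalClosure_le_normal fun z hz => fun v hv =>
        (mem_centralizer_iff.1 (Modules.comm_le_centralizer F.sInf_comm
          (Subgroup.mem_inf.1 hz).2) v (Subgroup.mem_inf.1 hv).2)
    rw [heq] at h0
    exact fun b hb => (h0 hb w hw).symm
  obtain ⟨U, hU, hBU⟩ : ∃ U ∈ mem, ¬ B ≤ U := by
    by_contra! hcon
    exact hnn (by rw [inf_eq_left.2 (le_sInf hcon)]; exact hBn)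
  obtain ⟨A, hA, -, hBA, hnorm⟩ := F.replace' B hBS hclass
    ⟨U, hU, hder.trans (_root_.sInf_le hU), hBU⟩
  have hq : ∀ a ∈ A, ⁅⁅B, zpowers a⁆, zpowers a⁆ = ⊥ := by
    intro a ha
    refine le_bot_iff.1 ((commutator_mono (commutator_mono le_rfl (zpowers_le.2 ha))
      (zpowers_le.2 ha)).trans_eq ?_)
    refine commutator_eq_bot_iff_le_centralizer.2 (le_trans ?_
      (Modules.comm_le_centralizer (F.comm' A hA)))
    rw [commutator_comm]
    refine commutator_le.2 fun a' ha' c hc => ?_
    rw [commutatorElement_def, show a' * c * a'⁻¹ * c⁻¹ = a' * (c * a'⁻¹ * c⁻¹) by group]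
    exact mul_mem ha' ((mem_normalizer_iff.1 (hnorm hc) _).1 (inv_mem ha'))
  set L : Subgroup G := (Cfsg.pCore p (G ⧸ centralizer (B : Set G))).comap (QuotientGroup.mk' _)
    with hL
  haveI hLn : L.Normal := Normal.comap inferInstance _
  have hAL : A ≤ L := fun a ha => hst B hBp a (hq a ha)
  set T := (S : Subgroup G) ⊓ L with hT
  obtain ⟨Q, hQ⟩ := Tech.exists_sylow_of_inf_normal S L
  rw [← hT] at hQ
  have hfrat : normalizer (T : Set G) ⊔ L = ⊤ := by
    have h1 := Sylow.normalizer_sup_eq_top Q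
    rwa [hQ] at h1
  have hLT : L ≤ T ⊔ centralizer (B : Set G) := by
    rw [← relIndex_eq_one]
    have h1 : (T ⊔ centralizer (B : Set G)).relIndex L ∣ T.relIndex L :=
      relIndex_dvd_of_le_left L le_sup_left
    have h2 : (T ⊔ centralizer (B : Set G)).relIndex L ∣ (centralizer (B : Set G)).relIndex L :=
      relIndex_dvd_of_le_left L le_sup_right
    obtain ⟨k, hk⟩ := IsPGroup.iff_card.1 (Cores.pCore_isPGroup (p := p)
      (G := G ⧸ centralizer (B : Set G)))
    have h3 : (centralizer (B : Set G)).relIndex L = p ^ k := by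
      conv_lhs => rw [← QuotientGroup.ker_mk' (centralizer (B : Set G)), relIndex_ker, hL,
        map_comap_eq_self_of_surjective (QuotientGroup.mk'_surjective _)]
      exact hk
    have h4 : (T.relIndex L).Coprime p := by
      rw [relIndex, show T.subgroupOf L = (Q : Subgroup L) from by
        rw [← hQ]; exact comap_map_eq_self_of_injective L.subtype_injective _]
      exact (hp.out.coprime_iff_not_dvd.2 Q.not_dvd_index).symm
    rw [h3] at h2
    exact Nat.eq_one_of_dvd_coprimes (h4.pow_right k) h1 h2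
  have htop : normalizer (T : Set G) ⊔ centralizer (B : Set G) = ⊤ :=
    le_antisymm le_top (hfrat.ge.trans (sup_le le_sup_left
      (hLT.trans (sup_le (le_normalizer.trans le_sup_left) le_sup_right))))
  have hAT : A ≤ T := le_inf (F.le' A hA) hAL
  have hTinv := F.invariant T inf_le_left ⟨A, hA, hAT⟩
  have hcl : B₁ ≤ sInf {A | A ∈ mem ∧ A ≤ T} := by
    rw [hB₁, normalClosure, closure_le]
    intro x hx
    obtain ⟨z, hz, hc⟩ := Group.mem_conjugatesOfSet_iff.1 hx
    obtain ⟨g, rfl⟩ := isConj_iff.1 hc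
    obtain ⟨hzB, hzZ⟩ := Subgroup.mem_inf.1 hz
    obtain ⟨n, hn, c, hc', rfl⟩ : g ∈ ((normalizer (T : Set G)) : Set G) *
        (centralizer (B : Set G) : Set G) := by
      rw [← mul_normal, htop]; trivial
    have he : n * c * z * (n * c)⁻¹ = n * z * n⁻¹ := by
      rw [show n * c * z * (n * c)⁻¹ = n * (c * z * c⁻¹) * n⁻¹ by group,
        ← mem_centralizer_iff.1 hc' z hzB, mul_inv_cancel_right]
    rw [SetLike.mem_coe, he]
    have hle : Z ≤ sInf {A | A ∈ mem ∧ A ≤ T} := _root_.sInf_le_sInf fun A hA => hA.1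
    exact (mem_normalizer_iff.1 (hTinv hn) z).1 (hle hzZ)
  rw [heq] at hcl
  exact hBA (hcl.trans (_root_.sInf_le ⟨hA, hAT⟩))

/-- The axiomatic ZJ theorem. -/
theorem Family.sInf_normal [Finite G] [hp : Fact p.Prime]
    (hc : centralizer (Cfsg.pCore p G : Set G) ≤ Cfsg.pCore p G)
    (hst : ∀ (P : Subgroup G) [P.Normal], IsPGroup p P → Cfsg.IsPStableOn p P) {S : Sylow p G}
    (F : Family (S : Subgroup G) mem) : (sInf mem).Normal := by
  set Z := sInf mem with hZ
  set P := Cfsg.pCore p G with hP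
  have hPS : P ≤ S := PSolv.pCore_le_sylow S
  have hSZ : (S : Subgroup G) ≤ normalizer (Z : Set G) := F.le_normalizer_sInf
  suffices hZP : Z ≤ P by
    have := F.inf_normal hst P inferInstance Cores.pCore_isPGroup
    rwa [inf_eq_right.2 hZP] at this
  intro z hz
  have hq : ⁅⁅P, zpowers z⁆, zpowers z⁆ = ⊥ := by
    refine le_bot_iff.1 ((commutator_mono (commutator_mono le_rfl (zpowers_le.2 hz))
      (zpowers_le.2 hz)).trans_eq ?_)
    refine commutator_eq_bot_iff_le_centralizer.2
      (le_trans ?_ (Modules.comm_le_centralizer F.sInf_comm))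
    rw [commutator_comm]
    refine commutator_le.2 fun a ha c hc' => ?_
    rw [commutatorElement_def, show a * c * a⁻¹ * c⁻¹ = a * (c * a⁻¹ * c⁻¹) by group]
    exact mul_mem ha ((mem_normalizer_iff.1 (hSZ (hPS hc')) _).1 (inv_mem ha))
  have hL : IsPGroup p ↥((Cfsg.pCore p (G ⧸ centralizer (P : Set G))).comap
      (QuotientGroup.mk' (centralizer (P : Set G)))) := by
    refine Cores.pCore_isPGroup.comap_of_ker_isPGroup _ ?_
    rw [QuotientGroup.ker_mk']
    exact Cores.pCore_isPGroup.to_le hc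
  exact Cores.le_pCore (Normal.comap inferInstance _) hL (hst P Cores.pCore_isPGroup z hq)

lemma Family.subgroupOf {S M : Subgroup G} (F : Family S mem) (hSM : S ≤ M) :
    Family (S.subgroupOf M) ((fun A => A.subgroupOf M) '' mem) := by
  have hmap : ∀ A ∈ mem, (A.subgroupOf M).map M.subtype = A := fun A hA =>
    map_subgroupOf_eq_of_le ((F.le' A hA).trans hSM)
  have hsub : ∀ Q : Subgroup M, Q ≤ S.subgroupOf M → Q.map M.subtype ≤ S := fun Q hQ =>
    (Subgroup.map_mono hQ).trans (map_subgroupOf_eq_of_le hSM).le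
  refine ⟨?_, ?_, F.nonempty'.image _, ?_, ?_⟩
  · rintro _ ⟨A, hA, rfl⟩
    exact comap_mono (F.le' A hA)
  · rintro _ ⟨A, hA, rfl⟩
    haveI := F.comm' A hA
    exact ⟨⟨fun a b => Subtype.ext (Subtype.ext (congrArg Subtype.val
      (IsMulCommutative.is_comm.comm (⟨((a : M) : G), a.2⟩ : A) ⟨((b : M) : G), b.2⟩) :))⟩⟩
  · rintro Q hQ ⟨_, ⟨A, hA, rfl⟩, hAQ⟩ g hg
    have hAQ' : A ≤ Q.map M.subtype := (hmap A hA).ge.trans (Subgroup.map_mono hAQ)
    have hgn := F.invariant _ (hsub Q hQ) ⟨A, hA, hAQ'⟩ (le_normalizer_map M.subtype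
      (mem_map_of_mem M.subtype hg))
    have he : (sInf {A' | A' ∈ (fun A => A.subgroupOf M) '' mem ∧ A' ≤ Q} : Subgroup M) =
        (sInf {A | A ∈ mem ∧ A ≤ Q.map M.subtype}).subgroupOf M := by
      ext x
      simp only [mem_sInf, Subgroup.mem_subgroupOf]
      constructor
      · rintro h B ⟨hB, hBQ⟩
        refine h _ ⟨⟨B, hB, rfl⟩, fun y hy => ?_⟩
        obtain ⟨z, hz, hzy⟩ := hBQ hy
        exact Subtype.ext hzy ▸ hz
      · rintro h _ ⟨⟨B, hB, rfl⟩, hBQ⟩
        exact h B ⟨hB, (hmap B hB).ge.trans (Subgroup.map_mono hBQ)⟩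
    rw [mem_normalizer_iff]
    intro x
    rw [he, Subgroup.mem_subgroupOf, Subgroup.mem_subgroupOf]
    exact mem_normalizer_iff.1 hgn (x : G)
  · rintro B hB hcl ⟨_, ⟨A, hA, rfl⟩, hd, hn⟩
    have hm : ⁅B.map M.subtype, B.map M.subtype⁆ = (⁅B, B⁆).map M.subtype :=
      (map_commutator _ _ _).symm
    obtain ⟨A', hA', hd', hn', hN⟩ := F.replace' _ (hsub B hB)
      (by rw [hm, ← map_commutator, hcl, Subgroup.map_bot])
      ⟨A, hA, hm.le.trans ((Subgroup.map_mono hd).trans (hmap A hA).le), fun h => hn fun x hx =>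
        h (mem_map_of_mem M.subtype hx)⟩
    refine ⟨_, ⟨A', hA', rfl⟩, fun x hx => ?_, fun h => hn' ?_, fun x hx => ?_⟩
    · exact hd' (hm.ge (mem_map_of_mem M.subtype hx))
    · exact (Subgroup.map_mono h).trans (hmap A' hA').le
    · rw [mem_normalizer_iff]
      exact fun y => mem_normalizer_iff.1 (hN (mem_map_of_mem M.subtype hx)) (y : G)

/-- In a strictly constrained group, if the normalizer of the intersection is a `p`-group, so is
the group. -/
theorem isPGroup_of_normalizer_sInf [hp : Fact p.Prime] (hp2 : p ≠ 2) :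
    ∀ (n : ℕ) {G : Type u} [Group G] [Finite G] (S : Sylow p G) (mem : Set (Subgroup G)),
      Nat.card G = n → Family (S : Subgroup G) mem →
      centralizer (Cfsg.pCore p G : Set G) ≤ Cfsg.pCore p G →
      IsPGroup p (normalizer ((sInf mem : Subgroup G) : Set G)) → IsPGroup p G := by
  intro n
  induction n using Nat.strong_induction_on with
  | _ n ih =>
  intro G _ _ S mem hn F hc hN
  -- `S` is maximal
  have hmax : ∀ M : Subgroup G, (S : Subgroup G) ≤ M → M ≠ ⊤ → M = S := by
    intro M hSM hM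
    have hlt : Nat.card M < n := hn ▸ lt_of_le_of_ne (Subgroup.card_le_card_group M)
      fun h => hM (Subgroup.eq_top_of_card_eq M h)
    have hcore : (Cfsg.pCore p G).subgroupOf M ≤ Cfsg.pCore p M :=
      Cores.le_pCore inferInstance (Cores.pCore_isPGroup.comap_of_injective _ M.subtype_injective)
    have hMp : IsPGroup p M := by
      have F' := F.subgroupOf hSM
      rw [← Sylow.coe_subtype (P := S) (N := M) hSM] at F'
      refine ih _ hlt (S.subtype hSM) _ rfl F' ?_ ?_
      · refine (centralizer_le (SetLike.coe_subset_coe.2 hcore)).trans (le_trans ?_ hcore)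
        intro x hx
        exact hc fun o ho => congrArg Subtype.val (hx ⟨o, hSM (PSolv.pCore_le_sylow S ho)⟩ ho)
      · refine IsPGroup.of_injective (hN) (((M.subtype).comp
          (normalizer _).subtype).codRestrict _ fun x => ?_) ?_
        · have hx := x.2
          show ((x : M) : G) ∈ normalizer _
          rw [mem_normalizer_iff] at hx ⊢
          have hsInf : ∀ y : M, (y : G) ∈ sInf mem ↔
              y ∈ sInf ((fun A : Subgroup G => A.subgroupOf M) '' mem) := by
            intro y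
            simp [mem_sInf, Subgroup.mem_subgroupOf]
          intro y
          by_cases hyM : y ∈ M
          · exact (hsInf ⟨y, hyM⟩).trans ((hx ⟨y, hyM⟩).trans (hsInf _).symm)
          · refine iff_of_false (fun h => hyM (hSM (F.sInf_le h))) fun h => hyM ?_
            have h' := M.mul_mem (M.mul_mem (M.inv_mem (x : M).2) (hSM (F.sInf_le h))) (x : M).2
            simpa [mul_assoc] using h'
        · intro a b h
          exact Subtype.ext (Subtype.ext (congrArg Subtype.val h :))
    exact S.3 hMp hSM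
  set O := Cfsg.pCore p G with hO
  set π := QuotientGroup.mk' O with hπdef
  have hπ : Function.Surjective π := QuotientGroup.mk'_surjective O
  have hcoreQ : Cfsg.pCore p (G ⧸ O) = ⊥ := Cores.pCore_quotient_pCore_eq_bot
  set T := S.mapSurjective hπ with hTdef
  have hTc : (T : Subgroup (G ⧸ O)) = (S : Subgroup G).map π := Sylow.coe_mapSurjective ..
  have hTtop : (T : Subgroup (G ⧸ O)) = ⊤ → IsPGroup p G := by
    intro h
    have h1 : (⊤ : Subgroup G) ≤ S := fun x _ => by
      obtain ⟨s, hs, he⟩ := (hTc ▸ h.ge (Subgroup.mem_top (π x)) :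
        π x ∈ (S : Subgroup G).map π)
      have hm : s⁻¹ * x ∈ O := QuotientGroup.eq.1 he
      simpa using mul_mem hs (PSolv.pCore_le_sylow S hm)
    exact (S.2.to_le h1).of_equiv Subgroup.topEquiv
  -- the quotient has a normal `p`-complement
  have hmaxQ : ∀ M : Subgroup (G ⧸ O), (T : Subgroup (G ⧸ O)) ≤ M → M ≠ ⊤ → M = T := by
    intro M hTM hM
    have h1 := hmax (M.comap π) (Subgroup.map_le_iff_le_comap.1 (hTc ▸ hTM)) fun h => hM (by
      rw [← Subgroup.map_comap_eq_self_of_surjective hπ M, h, Subgroup.map_top_of_surjective π hπ])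
    rw [hTc, ← h1, Subgroup.map_comap_eq_self_of_surjective hπ M]
  by_contra hbad
  have hT1 : (T : Subgroup (G ⧸ O)) ≠ ⊥ := by
    intro h
    refine hbad ?_
    have hSO : (S : Subgroup G) ≤ O := by
      rw [hTc, Subgroup.map_eq_bot_iff, QuotientGroup.ker_mk'] at h
      exact h
    by_cases htop : normalizer ((sInf mem : Subgroup G) : Set G) = ⊤
    · exact (htop ▸ hN : IsPGroup p (⊤ : Subgroup G)).of_equiv Subgroup.topEquiv
    · haveI : (S : Subgroup G).Normal := by
        rw [le_antisymm hSO (PSolv.pCore_le_sylow S)]; infer_instance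
      have h2 := F.invariant S le_rfl
        (F.nonempty'.elim fun A hA => ⟨A, hA, F.le' A hA⟩)
      rw [normalizer_eq_top, show {A | A ∈ mem ∧ A ≤ (S : Subgroup G)} = mem from
        Set.ext fun B => and_iff_left_of_imp (F.le' B), top_le_iff] at h2
      exact absurd h2 htop
  have hnpc : Cfsg.HasNormalPComplement p (G ⧸ O) := by
    refine Stability.npc_centerThompsonA hp2 T ?_
    set W := Cfsg.centerThompsonAOf (T : Subgroup (G ⧸ O)) with hW
    have hWT : W ≤ T := Modules.centerThompsonAOf_le _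
    have hne : normalizer (W : Set (G ⧸ O)) ≠ ⊤ := fun h => by
      haveI : W.Normal := normalizer_eq_top_iff.1 h
      exact Modules.centerThompsonAOf_ne_bot (p := p) T.2 hT1
        (le_bot_iff.1 (hcoreQ ▸ Cores.le_pCore inferInstance (T.2.to_le hWT)))
    have h1 : (T : Subgroup (G ⧸ O)) ≤ normalizer (W : Set (G ⧸ O)) :=
      le_normalizer.trans ((Stability.centerThompsonAFunctor p).normalizer_le _)
    rw [hmaxQ _ h1 hne]
    obtain ⟨P⟩ := (inferInstance : Nonempty (Sylow p (T : Subgroup (G ⧸ O))))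
    refine ⟨P, ⊥, inferInstance, ?_⟩
    rw [show (P : Subgroup (T : Subgroup (G ⧸ O))) = ⊤ from (P.3 (T.2.to_subgroup ⊤) le_top).symm]
    exact Subgroup.isComplement'_bot_top
  set KQ := Cfsg.pResidual p (G ⧸ O) with hKQ
  have hKQc : ¬ p ∣ Nat.card KQ := Transfer.hasNormalPComplement_iff.mp hnpc
  have hsup : KQ ⊔ (T : Subgroup (G ⧸ O)) = ⊤ := Transfer.pResidual_sup_sylow T
  have hKQne : KQ ≠ ⊥ := by
    intro h
    rw [h, bot_sup_eq] at hsup
    exact hbad (hTtop hsup)
  have hcop : (Nat.card (T : Subgroup (G ⧸ O))).Coprime (Nat.card KQ) := by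
    obtain ⟨j, hj⟩ := T.2.exists_card_eq
    rw [hj]; exact Nat.Coprime.pow_left j ((hp.out.coprime_iff_not_dvd).mpr hKQc)
  have hinv : ∀ L : Subgroup (G ⧸ O), L ≤ KQ →
      (T : Subgroup (G ⧸ O)) ≤ normalizer (L : Set (G ⧸ O)) → L = ⊥ ∨ L = KQ := by
    intro L hLK hTL
    by_cases h : L ⊔ (T : Subgroup (G ⧸ O)) = ⊤
    · refine Or.inr (le_antisymm hLK fun x hx => ?_)
      have hmem : x ∈ L ⊔ (T : Subgroup (G ⧸ O)) := h ▸ Subgroup.mem_top x
      rw [← SetLike.mem_coe, Subgroup.coe_mul_of_right_le_normalizer_left _ _ hTL] at hmem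
      obtain ⟨l, hl, y, hy, rfl⟩ := hmem
      have hyK : y ∈ KQ := by simpa using mul_mem (inv_mem (hLK (show l ∈ L from hl))) hx
      have : y ∈ KQ ⊓ (T : Subgroup (G ⧸ O)) := ⟨hyK, hy⟩
      rw [inf_comm, PSolv.sylow_inf_eq_bot ((Cores.coprime_iff_not_dvd_prime hp.out).mpr hKQc) T.2,
        Subgroup.mem_bot] at this
      simpa [this] using hl
    · left
      have h1 := hmaxQ _ le_sup_right h
      have h2 : L ≤ (T : Subgroup (G ⧸ O)) ⊓ KQ := le_inf (le_sup_left.trans h1.le) hLK
      rw [PSolv.sylow_inf_eq_bot ((Cores.coprime_iff_not_dvd_prime hp.out).mpr hKQc) T.2] at h2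
      exact le_bot_iff.1 h2
  obtain ⟨q, hq, hqd⟩ := Nat.exists_prime_and_dvd
    (show Nat.card KQ ≠ 1 from fun h => hKQne (Subgroup.card_eq_one.mp h))
  haveI := Fact.mk hq
  haveI := T.2.isNilpotent
  obtain ⟨Q, hQ⟩ := Coprime.exists_invariant_sylow q (A := (T : Subgroup (G ⧸ O))) (K := KQ)
    Subgroup.le_normalizer_of_normal hcop (Or.inl inferInstance)
  have hKQq : IsPGroup q KQ := by
    rcases hinv _ (Subgroup.map_subtype_le _) hQ with h | h
    · exact absurd ((Subgroup.map_eq_bot_iff_of_injective _ KQ.subtype_injective).mp h)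
        (Q.ne_bot_of_dvd_card hqd)
    · have := Q.2.map KQ.subtype
      rwa [h] at this
  have hKQab : ⁅KQ, KQ⁆ = ⊥ := by
    refine (hinv _ (Subgroup.commutator_le_left KQ KQ)
      Subgroup.le_normalizer_of_normal).resolve_right fun h => ?_
    haveI : Nontrivial KQ := (Subgroup.nontrivial_iff_ne_bot KQ).mpr hKQne
    have h1 := PGroup.commutator_top_lt hKQq (N := (⊤ : Subgroup KQ)) top_ne_bot
    refine h1.ne (Subgroup.map_injective KQ.subtype_injective ?_)
    rw [Subgroup.map_commutator, ← MonoidHom.range_eq_map, Subgroup.range_subtype, h]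
  haveI : (KQ.comap π).Normal := Normal.comap inferInstance _
  have hKP : KQ.comap π ⊔ (S : Subgroup G) = ⊤ := by
    rw [← Subgroup.comap_map_eq_self (f := π) (H := KQ.comap π ⊔ (S : Subgroup G))
      ((Subgroup.ker_le_comap π KQ).trans le_sup_left), Subgroup.map_sup,
      Subgroup.map_comap_eq_self_of_surjective hπ, ← hTc, hsup, Subgroup.comap_top]
  have hcomm : ⁅KQ.comap π, KQ.comap π⁆ ≤ O := by
    intro x hx
    have : π x ∈ (⁅KQ.comap π, KQ.comap π⁆).map π := ⟨x, hx, rfl⟩
    rw [Subgroup.map_commutator, Subgroup.map_comap_eq_self_of_surjective hπ, hKQab] at this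
    exact (QuotientGroup.eq_one_iff x).1 this
  haveI hn' := F.sInf_normal hc (fun B _ hB =>
    (EvenLocal.pairFree_of_abelian_mod_core hp2 S hKP hcomm).isPStableOn hp2 hB)
  rw [normalizer_eq_top] at hN
  exact hbad (hN.of_equiv Subgroup.topEquiv)

end Cfsg.Agent.FusionSys.AxiomaticZJ
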