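import Cfsg.Agent.FusionAlperin.GoodExtension
import Cfsg.Agent.FusionAlperin.PPrimeResidual
import Cfsg.Agent.S5141
import Cfsg.Agent.FusionSys.InnerCriterion
import Cfsg.Agent.FusionAux.SeriesStab
import Cfsg.Agent.FusionAlperin.GoodLift

/-!
A character of order prime to `p` of `Aut_F(T)` trivial on `Aut_E(T)`, for an invariant subsystem
`E` over `T`, is constant on the decompositions `φ = α ∘ φ₀` of a map on a subgroup `T`-centric in `F`,
so it extends to these maps.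
-/

set_option autoImplicit false

open Cfsg Cfsg.FusionSystem
open Cfsg.Agent.FusionSys Cfsg.Agent.FusionAlperin
open Cfsg.Agent.S5119 (InvT autExt_inv autExt_inv' autExt_mul)

namespace Cfsg.Agent.FusionSys

variable {Ω : Type*} [Group Ω] {S T : Subgroup Ω} {F : FusionSystem S} {E : FusionSystem T}
  {Δ : Type*} [Group Δ] {χ : F.autGroup T →* Δ} {p : ℕ}

/-- `f` is `α ∘ φ₀` with `φ₀` in `E` and `χ α = γ`. -/
def CharVal (χ : F.autGroup T →* Δ) (E : FusionSystem T) (N : Subgroup Ω) (f : N → Ω) (γ : Δ) :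
    Prop :=
  ∃ α : F.autGroup T, χ α = γ ∧ ∃ φ₀ ∈ E.Hom N, ∀ x : N, f x = autExt (α : MulAut T) (φ₀ x)

theorem CharVal.of_mem {N : Subgroup Ω} {φ : N →* Ω} (hφ : φ ∈ E.Hom N) :
    CharVal χ E N φ 1 :=
  ⟨1, map_one χ, φ, hφ, fun x => (autExt_of_mem (1 : MulAut T) (map_mem_S E hφ x)).symm⟩

theorem CharVal.of_aut (α : F.autGroup T) {N : Subgroup Ω} (hN : N ≤ T) :
    CharVal χ E N (fun x => autExt (α : MulAut T) x) (χ α) :=
  ⟨α, rfl, N.subtype, subtype_mem E hN, fun _ => rfl⟩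

theorem CharVal.exists_of_hom (hE : E.IsInvariantIn F) {N : Subgroup Ω} (hN : N ≤ T)
    {φ : N →* Ω} (hφ : φ ∈ F.Hom N) : ∃ γ, CharVal χ E N φ γ := by
  obtain ⟨α, hα, φ₀, hφ₀, he⟩ := hE.2.2.2 N hN φ hφ
  exact ⟨_, ⟨α, hα⟩, rfl, φ₀, hφ₀, fun x =>
    (he x (map_mem_S E hφ₀ x)).trans (autExt_of_mem α (map_mem_S E hφ₀ x)).symm⟩

theorem CharVal.restrict {N R : Subgroup Ω} {f : N → Ω} {γ : Δ} (hf : CharVal χ E N f γ)
    (h : R ≤ N) {g : R → Ω} (hg : ∀ x : R, g x = f ⟨x, h x.2⟩) : CharVal χ E R g γ := by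
  obtain ⟨α, hα, a, ha, hae⟩ := hf
  exact ⟨α, hα, _, restr_mem E h ha, fun x => (hg x).trans (hae _)⟩

theorem CharVal.comp (hI : InvT F E) {P Q : Subgroup Ω} {f : P → Ω} {g : Q → Ω} {γ δ : Δ}
    (hf : CharVal χ E P f γ) (hg : CharVal χ E Q g δ) (h : ∀ x, f x ∈ Q) :
    CharVal χ E P (fun x => g ⟨f x, h x⟩) (δ * γ) := by
  obtain ⟨α, hα, a, ha, hae⟩ := hf
  obtain ⟨β, hβ, b, hb, hbe⟩ := hg
  obtain ⟨c, hc, hce⟩ := hI _ (inv_mem α.2) Q b hb
  have hm : ∀ x, a x ∈ autImage ((α : MulAut T))⁻¹ Q := by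
    intro x
    have h1 := autExt_mem_autImage ((α : MulAut T))⁻¹ (le_S E hb) (h x)
    rwa [hae, autExt_inv _ (map_mem_S E ha x)] at h1
  refine ⟨β * α, by rw [map_mul, hβ, hα], _, E.comp_mem ha hc hm, fun x => ?_⟩
  show _ = autExt _ (c ⟨a x, hm x⟩)
  have e : (⟨a x, hm x⟩ : autImage ((α : MulAut T))⁻¹ Q) =
      ⟨_, autExt_mem_autImage ((α : MulAut T))⁻¹ (le_S E hb) (h x)⟩ := by
    refine Subtype.ext ?_
    show a x = autExt ((α : MulAut T))⁻¹ (f x)
    rw [hae, autExt_inv _ (map_mem_S E ha x)]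
  have hbT := map_mem_S E hb ⟨f x, h x⟩
  rw [e, hce ⟨f x, h x⟩ _, Subgroup.coe_mul,
    autExt_mul _ _ (by rw [autExt_of_mem _ hbT]; exact (((α : MulAut T))⁻¹ _).2),
    autExt_inv' _ hbT]
  exact hbe _

/-- At sources of order `m` the value is determined by the map. -/
def CharUnique (χ : F.autGroup T →* Δ) (E : FusionSystem T) (m : ℕ) : Prop :=
  ∀ N : Subgroup Ω, TCentric F T N → Nat.card N = m → ∀ (f : N → Ω) (γ δ : Δ),
    CharVal χ E N f γ → CharVal χ E N f δ → γ = δ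

theorem charUnique_of_agree (hE : E.IsInvariantIn F) {m : ℕ}
    (h : ∀ R : Subgroup Ω, TCentric F T R → Nat.card R = m → ∀ α : F.autGroup T,
      (∃ ψ ∈ E.Hom R, ∀ x : R, ψ x = autExt (α : MulAut T) x) → χ α = 1) :
    CharUnique χ E m := by
  rintro N hN hm f γ δ ⟨α, rfl, a, ha, hae⟩ ⟨β, rfl, b, hb, hbe⟩
  obtain ⟨c, hc, hce⟩ := E.inv_mem ha
  have hcN : ∀ y, c y ∈ N := by
    rintro ⟨_, x, rfl⟩
    rw [hce]
    exact x.2
  have hconj : F.IsConj N a.range := ⟨a, hE.1 N ha, rfl⟩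
  have h1 := h a.range (tCentric_of_isConj hE.2.1 hN hconj) ((isConj_card_eq hconj).symm.trans hm)
    (β⁻¹ * α) ⟨_, E.comp_mem hc hb hcN, by
      rintro ⟨_, x, rfl⟩
      show b ⟨c _, _⟩ = _
      have e : (⟨c ⟨a x, x, rfl⟩, hcN _⟩ : N) = x := Subtype.ext (hce x)
      rw [e, Subgroup.coe_mul, autExt_mul _ _ (map_mem_S E ha x), ← hae, hbe, Subgroup.coe_inv,
        autExt_inv _ (map_mem_S E hb x)]⟩
  rw [map_mul, map_inv, inv_mul_eq_one] at h1
  exact h1.symm

theorem eq_one_of_pow {p : ℕ} [Fact p.Prime] [Finite Δ] (hΔ : (Nat.card Δ).Coprime p) {γ : Δ}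
    {k : ℕ} (h : γ ^ p ^ k = 1) : γ = 1 :=
  FusionAlperin.coprime_trivial hΔ (pow_card_eq_one' (x := γ)) h

theorem char_eq_one_of_pow {p : ℕ} [Fact p.Prime] [Finite Δ] (hΔ : (Nat.card Δ).Coprime p)
    {α : F.autGroup T} {k : ℕ} (h : α ^ p ^ k = 1) : χ α = 1 :=
  eq_one_of_pow hΔ (k := k) (by rw [← map_pow, h, map_one])

/-- The value of a `p`-automorphism of a subgroup is trivial. -/
theorem CharVal.eq_one_of_pow [Fact p.Prime] [Finite Δ] (hΔ : (Nat.card Δ).Coprime p)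
    (hI : InvT F E) {N : Subgroup Ω} (hN : TCentric F T N) (hu : CharUnique χ E (Nat.card N))
    {a : MulAut N} {γ : Δ} (hγ : CharVal χ E N (fun x => (a x : Ω)) γ) {k : ℕ}
    (hk : a ^ p ^ k = 1) : γ = 1 := by
  have hpow : ∀ n : ℕ, CharVal χ E N (fun x => ((a ^ n) x : Ω)) (γ ^ n) := by
    intro n
    induction n with
    | zero =>
      rw [pow_zero, pow_zero]
      exact CharVal.of_mem (φ := N.subtype) (subtype_mem E hN.1)
    | succ n ih =>
      have h := CharVal.comp hI ih hγ fun x => ((a ^ n) x).2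
      rw [← pow_succ'] at h
      refine CharVal.restrict h le_rfl fun x => ?_
      rw [pow_succ', MulAut.mul_apply]
  have h1 : CharVal χ E N (fun x => (x : Ω)) (γ ^ p ^ k) := by
    have h2 := hpow (p ^ k)
    rw [hk] at h2
    exact h2
  exact FusionSys.eq_one_of_pow hΔ (k := k)
    (hu N hN rfl _ _ _ h1 (CharVal.of_mem (subtype_mem E hN.1)))

variable [Finite S] [Fact p.Prime] [Finite Δ]

/-- An element of `Aut_F(T)` agreeing with a map of `E` on a `T`-centric subgroup is in the kernel. -/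
theorem char_agree (hS : IsPGroup p S) (hE : E.IsInvariantIn F)
    (hEs : E.IsSaturated p) (hΔ : (Nat.card Δ).Coprime p)
    (hker : (E.autGroup T).subgroupOf (F.autGroup T) ≤ χ.ker) {R : Subgroup Ω}
    (hR : TCentric F T R) :
    ∀ α : F.autGroup T, (∃ ψ ∈ E.Hom R, ∀ x : R, ψ x = autExt (α : MulAut T) x) → χ α = 1 := by
  have hT := hE.2.1
  have hTS := hT.1
  have hI := Cfsg.Agent.S5141.invT_of_invariant hE
  have : Finite T := finite_of_le ‹_› hTS
  have hTp := hS.to_le hTS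
  suffices H : ∀ P, P ≤ T → TCentric F T P → ∀ α : F.autGroup T,
      (∃ ψ ∈ E.Hom P, ∀ x : P, ψ x = autExt (α : MulAut T) x) → χ α = 1 from H R hR.1 hR
  intro P hPT
  refine downward_induction (S := T) (motive := fun P => TCentric F T P → ∀ α : F.autGroup T,
    (∃ ψ ∈ E.Hom P, ∀ x : P, ψ x = autExt (α : MulAut T) x) → χ α = 1) ?_ hPT
  clear! P
  rintro P hPT ih hP α ⟨ψ, hψ, hψe⟩
  rcases hPT.eq_or_lt with rfl | hlt
  · refine MonoidHom.mem_ker.1 (hker (Subgroup.mem_subgroupOf.2 ?_))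
    exact (mem_autGroup E le_rfl).2 (mem_hom_congr E hψ fun x =>
      (autExt_of_mem (α : MulAut P) x.2).symm.trans (hψe x).symm)
  set N := normalizerIn T P
  have hNT : N ≤ T := normalizerIn_le P
  have hPN : P < N := lt_normalizerIn hTp hlt
  have hNc : TCentric F T N := tCentric_mono hP hPN.le hNT
  have hcard : Nat.card P < Nat.card N := card_lt_of_lt hNT hPN
  have hu : CharUnique χ E (Nat.card N) := charUnique_of_agree hE fun R hR hm =>
    ih R hR.1 (hm ▸ hcard) hR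
  set a : T →* Ω := T.subtype.comp (α : MulAut T).toMonoidHom with hadef
  have ha : a ∈ F.Hom T := autGroup_mem_hom F hTS α.2
  have haN := restr_mem F hNT ha
  have hψF : ψ ∈ F.Hom P := hE.1 P hψ
  have hP' := tCentric_of_isConj hT hP ⟨ψ, hψF, rfl⟩
  have hrec := saturated_fullyCentralized hTp hEs
    (centric_fullyCentralized (centric_of_tCentric hE.1 hP'))
  obtain ⟨θ', hθ', hθe'⟩ := hrec.2 P ψ hψ rfl
  have hNle : N ≤ extender T P ψ := by
    intro g hg
    refine mem_extender.2 ⟨hg.1, hg.2, a ⟨g, hg.1⟩, (α : MulAut T) ⟨g, hg.1⟩ |>.2, fun x hx => ?_⟩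
    rw [hψe, hψe, autExt_of_mem _ (hPT hx), autExt_of_mem _ (hPT x.2)]
    show ((((α : MulAut T) ⟨g * x * g⁻¹, _⟩ : T)) : Ω) = _
    rw [hadef]
    simp only [MonoidHom.coe_comp, MulEquiv.coe_toMonoidHom, Function.comp_apply,
      Subgroup.coe_subtype, ← Subgroup.coe_inv, ← Subgroup.coe_mul, ← map_inv, ← map_mul]
    rfl
  set θ := restr hNle θ'
  have hθ : θ ∈ E.Hom N := restr_mem E hNle hθ'
  have hθF := hE.1 N hθ
  have hθe : ∀ (x : N) (hx : (x : Ω) ∈ P), θ x = ψ ⟨x, hx⟩ := fun x hx => hθe' x hx _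
  set N' := (restr hNT a).range
  have hN'c : Nat.card N' = Nat.card N := (isConj_card_eq ⟨_, haN, rfl⟩).symm
  have hmemN' : ∀ y : T, (∀ z ∈ ψ.range, (y : Ω) * z * (y : Ω)⁻¹ ∈ ψ.range) → (y : Ω) ∈ N' := by
    intro y hy
    set g : T := (α : MulAut T).symm y
    have hgP : ∀ x : Ω, x ∈ P → (g : Ω) * x * (g : Ω)⁻¹ ∈ P := by
      intro x hx
      obtain ⟨w, hw⟩ := hy _ ⟨⟨x, hx⟩, rfl⟩
      rw [hψe, hψe, autExt_of_mem _ (hPT w.2), autExt_of_mem _ (hPT hx)] at hw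
      have h1 : (α : MulAut T) ⟨w, hPT w.2⟩ = (α : MulAut T) (g * ⟨x, hPT hx⟩ * g⁻¹) := by
        refine Subtype.ext (hw.trans ?_)
        simp [g]
      have h2 := congrArg Subtype.val ((α : MulAut T).injective h1)
      simp only [Subgroup.coe_mul, Subgroup.coe_inv] at h2
      exact h2 ▸ w.2
    have : Finite P := finite_of_le ‹_› hPT
    have hgN : (g : Ω) ∈ Subgroup.normalizer (P : Set Ω) := by
      let e : P → P := fun x => ⟨_, hgP x x.2⟩
      have he : Function.Injective e := fun x x' h => Subtype.ext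
        (mul_left_cancel (mul_right_cancel (congrArg Subtype.val h :)))
      refine Subgroup.mem_normalizer_iff.2 fun x => ⟨hgP x, fun hx => ?_⟩
      obtain ⟨x', hx'⟩ := (Finite.injective_iff_surjective.1 he) ⟨_, hx⟩
      have h3 := mul_left_cancel (mul_right_cancel (congrArg Subtype.val hx' :))
      exact h3 ▸ x'.2
    refine ⟨⟨g, g.2, hgN⟩, ?_⟩
    show (((α : MulAut T) g : T) : Ω) = y
    simp [g]
  have hθN' : θ.range = N' := by
    have : Finite N' := finite_of_le ‹_› ((range_le_S F haN).trans le_rfl)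
    refine eq_of_le_of_card_le ?_ ?_
    · rintro _ ⟨x, rfl⟩
      refine hmemN' ⟨θ x, map_mem_S E hθ x⟩ ?_
      rintro _ ⟨z, rfl⟩
      have hxz := (Subgroup.mem_normalizer_iff.1 x.2.2 z).1 z.2
      refine ⟨⟨_, hxz⟩, ?_⟩
      rw [← hθe ⟨_, hPN.le hxz⟩ hxz, ← hθe ⟨z, hPN.le z.2⟩ z.2]
      show _ = θ x * _ * (θ x)⁻¹
      rw [← map_inv, ← map_mul, ← map_mul]
      rfl
    · rw [hN'c]
      exact (isConj_card_eq ⟨θ, hθF, rfl⟩).le
  set e₁ := toIso F haN (rfl : (restr hNT a).range = N') with he₁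
  set e₂ := toIso F hθF hθN' with he₂
  set δ : MulAut N := e₁.trans e₂.symm with hδ
  have hδF : δ ∈ F.autGroup N := (mem_autGroup F (hNT.trans hTS)).2
    ((toIso_isIso F haN rfl).trans (toIso_isIso F hθF hθN').symm)
  have hδa : ∀ x : N, θ (δ x) = ((α : MulAut T) ⟨x, hNT x.2⟩ : T) := fun x => by
    have h := congrArg Subtype.val (e₂.apply_symm_apply (e₁ x))
    rw [he₂, toIso_coe] at h
    exact h
  obtain ⟨g, hg⟩ := CharVal.exists_of_hom (χ := χ) hE hNT (autGroup_mem_hom F (hNT.trans hTS) hδF)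
  have h1 : CharVal χ E N (fun x => θ (δ x)) (1 * g) :=
    CharVal.comp hI hg (CharVal.of_mem hθ) fun x => (δ x).2
  have h2 : χ α = 1 * g := hu N hNc rfl _ _ _ (CharVal.of_aut α hNT)
    (CharVal.restrict h1 le_rfl fun x => (autExt_of_mem _ (hNT x.2)).trans (hδa x).symm)
  rw [h2, one_mul]
  -- `δ` stabilizes the series `1 ≤ P ≤ N`
  have hfix : ∀ x : N, (x : Ω) ∈ P → δ x = x := by
    intro x hx
    refine e₂.injective (Subtype.ext ?_)
    rw [he₂, toIso_coe, toIso_coe]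
    show θ (δ x) = θ x
    rw [hδa, hθe x hx, hψe]
    exact (autExt_of_mem _ (hNT x.2)).symm
  have hdiff : ∀ x : N, ((x⁻¹ * δ x : N) : Ω) ∈ P := by
    intro x
    refine hP.2 P (isConj_refl F (hPT.trans hTS)) ⟨hNT (x⁻¹ * δ x).2, ?_⟩
    refine Subgroup.mem_centralizer_iff.2 fun n hn => ?_
    have hxn : (x : Ω) * n * (x : Ω)⁻¹ ∈ P := (Subgroup.mem_normalizer_iff.1 x.2.2 n).1 hn
    have hh := hfix (x * ⟨n, hPN.le hn⟩ * x⁻¹) hxn
    rw [map_mul, map_mul, map_inv, hfix ⟨n, hPN.le hn⟩ hn] at hh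
    have h3 : x⁻¹ * δ x * ⟨n, hPN.le hn⟩ = (⟨n, hPN.le hn⟩ : N) * (x⁻¹ * δ x) := by
      calc x⁻¹ * δ x * (⟨n, hPN.le hn⟩ : N)
          = x⁻¹ * (δ x * ⟨n, hPN.le hn⟩ * (δ x)⁻¹) * δ x := by group
        _ = _ := by rw [hh]; group
    exact (congrArg Subtype.val h3).symm
  have : Finite N := finite_of_le ‹_› hNT
  obtain ⟨k, hk⟩ := IsPGroup.iff_card.1 (hTp.to_le hNT)
  refine CharVal.eq_one_of_pow hΔ hI hNc hu hg (k := k) (MulEquiv.ext fun x => ?_)
  refine Cfsg.Agent.FusionAux.pow_fix_of_fix (A := P.subgroupOf N) (fun a ha => hfix a ha)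
    (hdiff x) ?_
  rw [← hk]
  exact pow_card_eq_one'

theorem charUnique (hS : IsPGroup p S) (hE : E.IsInvariantIn F) (hEs : E.IsSaturated p)
    (hΔ : (Nat.card Δ).Coprime p) (hker : (E.autGroup T).subgroupOf (F.autGroup T) ≤ χ.ker)
    (m : ℕ) : CharUnique χ E m :=
  charUnique_of_agree hE fun _ hR _ => char_agree hS hE hEs hΔ hker hR

/-- The maps whose restriction to the intersection with `T`, when `T`-centric, has value `1`. -/
def charSystem (hS : IsPGroup p S) (hE : E.IsInvariantIn F) (hEs : E.IsSaturated p)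
    (hΔ : (Nat.card Δ).Coprime p) (hker : (E.autGroup T).subgroupOf (F.autGroup T) ≤ χ.ker) :
    FusionSystem S :=
  subSystem F
    (fun P φ => TCentric F T (P ⊓ T) →
      CharVal χ E (P ⊓ T) (fun x => φ ⟨x, (inf_le_left : P ⊓ T ≤ P) x.2⟩) 1)
    (fun {P g} hP hg hc => by
      have hTn := sc_le_normalizer hE.2.1 hg
      have hc' : T.normalizerMonoidHom ⟨g, hTn⟩ ∈ autInducedBy S T :=
        mem_autInducedBy.2 ⟨g, hg, fun _ => rfl⟩
      set α : F.autGroup T :=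
        ⟨_, autInducedBy_le_autGroup F hE.2.1.1 hc'⟩
      obtain ⟨k, hk⟩ := isPGroup_autInducedBy hS T ⟨_, hc'⟩
      have h1 : χ α = 1 := char_eq_one_of_pow hΔ (k := k) (Subtype.ext (congrArg Subtype.val hk :))
      rw [← h1]
      refine CharVal.restrict (CharVal.of_aut α (inf_le_right : P ⊓ T ≤ T)) le_rfl fun x => ?_
      refine Eq.trans ?_ (autExt_of_mem _ ((inf_le_right : P ⊓ T ≤ T) x.2)).symm
      rfl)
    (by
      intro P Q φ ψ hφ hψ a b h hP
      have hT := hE.2.1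
      have hle : P ⊓ T ≤ P := inf_le_left
      have hres := restr_mem F hle hφ
      have hm : ∀ x : ↥(P ⊓ T), φ ⟨x, hle x.2⟩ ∈ Q ⊓ T := fun x =>
        ⟨h _, sc_map_mem hT hφ (x := ⟨x, hle x.2⟩) x.2.2⟩
      have hQ : TCentric F T (Q ⊓ T) := by
        refine tCentric_mono (tCentric_of_isConj hT hP ⟨_, hres, rfl⟩) ?_ inf_le_right
        rintro _ ⟨x, rfl⟩
        exact hm x
      have h1 := CharVal.comp (Cfsg.Agent.S5141.invT_of_invariant hE) (a hP) (b hQ) hm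
      rw [one_mul] at h1
      exact h1)
    (by
      intro P φ hφ a ψ hψ he hR
      have hT := hE.2.1
      have hle : P ⊓ T ≤ P := inf_le_left
      have hres := restr_mem F hle hφ
      have hr : φ.range ⊓ T ≤ (restr hle φ).range := by
        rintro y ⟨⟨x, rfl⟩, hy⟩
        obtain ⟨c, hc, hce⟩ := F.inv_mem hφ
        have hx : (x : Ω) ∈ T := by
          have h1 := sc_map_mem hT hc (x := ⟨φ x, x, rfl⟩) hy
          rwa [hce] at h1
        exact ⟨⟨x, x.2, hx⟩, rfl⟩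
      have hr' : (restr hle φ).range ≤ φ.range ⊓ T := by
        rintro _ ⟨x, rfl⟩
        exact ⟨⟨_, rfl⟩, sc_map_mem hT hφ (x := ⟨x, hle x.2⟩) x.2.2⟩
      have heq := le_antisymm hr hr'
      have hconj : F.IsConj (P ⊓ T) (φ.range ⊓ T) := ⟨_, hres, heq.symm⟩
      have hP : TCentric F T (P ⊓ T) := tCentric_of_isConj hT hR (isConj_symm hconj)
      have hle' : φ.range ⊓ T ≤ φ.range := inf_le_left
      obtain ⟨g, hg⟩ := CharVal.exists_of_hom (χ := χ) hE inf_le_right (restr_mem F hle' hψ)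
      have h1 := CharVal.comp (Cfsg.Agent.S5141.invT_of_invariant hE) (a hP) hg
        (fun x => hr' ⟨x, rfl⟩)
      have h2 : CharVal χ E (P ⊓ T) (fun x => (x : Ω)) (g * 1) :=
        CharVal.restrict h1 le_rfl fun x => (he ⟨x, hle x.2⟩).symm
      have h3 := charUnique hS hE hEs hΔ hker _ (P ⊓ T) hP rfl _ _ _ h2
        (CharVal.of_mem (subtype_mem E inf_le_right))
      rw [mul_one] at h3
      rw [← h3]
      exact hg)

/-- The `p`-elements lie in the character system. -/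
theorem pElem_le_charSystem (hS : IsPGroup p S) (hE : E.IsInvariantIn F) (hEs : E.IsSaturated p)
    (hΔ : (Nat.card Δ).Coprime p) (hker : (E.autGroup T).subgroupOf (F.autGroup T) ≤ χ.ker) :
    ContainsCentricPElems F p (charSystem hS hE hEs hΔ hker) := by
  intro Q hQ
  rw [pElemGroup, Subgroup.map_le_iff_le_comap, Subgroup.closure_le]
  rintro a ⟨k, hk⟩
  refine (mem_autGroup _ hQ.1).2 ⟨autGroup_mem_hom F hQ.1 a.2, fun hc => ?_⟩
  have hle : Q ⊓ T ≤ Q := inf_le_left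
  have hres := restr_mem F hle (autGroup_mem_hom F hQ.1 a.2)
  have hQT : Q ⊓ T ≤ S := hle.trans hQ.1
  haveI : Finite ↥(Q ⊓ T) := finite_of_le ‹_› hQT
  have hr : (restr hle (Q.subtype.comp (a : MulAut Q).toMonoidHom)).range = Q ⊓ T := by
    refine range_eq_of_image_le (F.injective_of_mem hres) ?_ le_rfl
    rintro _ ⟨x, rfl⟩
    exact ⟨((a : MulAut Q) _).2,
      sc_map_mem hE.2.1 (autGroup_mem_hom F hQ.1 a.2) (x := ⟨x, hle x.2⟩) x.2.2⟩
  set b := toIso F hres hr with hb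
  obtain ⟨g, hg⟩ := CharVal.exists_of_hom (χ := χ) hE inf_le_right hres
  have hg' : CharVal χ E (Q ⊓ T) (fun x => (b x : Ω)) g :=
    CharVal.restrict hg le_rfl fun x => toIso_coe F hres hr x
  have hbk : b ^ p ^ k = 1 := by
    refine MulEquiv.ext fun x => Subtype.ext ?_
    have h1 := mulAut_pow_compat (fun y : ↥(Q ⊓ T) => (⟨y, hle y.2⟩ : Q)) (a := b)
      (b := (a : MulAut Q)) (fun y => Subtype.ext (toIso_coe F hres hr y)) (p ^ k) x
    rw [show (a : MulAut Q) ^ p ^ k = 1 by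
      rw [← hk, ← Subgroup.orderOf_coe, pow_orderOf_eq_one]] at h1
    exact congrArg (fun w : Q => (w : Ω)) h1
  have := CharVal.eq_one_of_pow hΔ (Cfsg.Agent.S5141.invT_of_invariant hE) hc
    (charUnique hS hE hEs hΔ hker _) hg' hbk
  rw [this] at hg
  exact hg

end Cfsg.Agent.FusionSys
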