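import Cfsg.Agent.FusionAlperin.PPrimeResidual

/-!
The subsystem generated by the `p`-elements of the automizers of a family of centric subgroups
containing the essential ones: it contains the `p`-elements of all automizers.
-/

set_option autoImplicit false

open Cfsg Cfsg.FusionSystem
open Cfsg.Agent.FusionSys Cfsg.Agent.FusionAlperin
open Cfsg.Agent.S5119 (InvT Decomp decomp_comp decomp_symm decomp_restrict)

namespace Cfsg.Agent.FusionSys

variable {Ω : Type*} [Group Ω] {S : Subgroup Ω} {p : ℕ}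

/-- The least subsystem containing the `p`-elements of the automizers of the centric subgroups in
the family `H`. -/
def restrictedPElemSystem (F : FusionSystem S) (p : ℕ) (H : Subgroup Ω → Prop) : FusionSystem S :=
  subSystem F (fun P φ => ∀ E' : FusionSystem S,
      (∀ Q, F.IsCentric Q → H Q → pElemGroup F p Q ≤ E'.autGroup Q) → φ ∈ E'.Hom P)
    (fun hP hg E' _ => E'.conj_mem hP hg)
    (fun _ _ a b h E' hE' => E'.comp_mem (a E' hE') (b E' hE') h)
    (fun {P φ} _ a ψ _ he E' hE' => by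
      obtain ⟨c, hc, hce⟩ := E'.inv_mem (a E' hE')
      refine mem_hom_congr E' hc fun y => ?_
      obtain ⟨x, hx⟩ := y.2
      have hy : y = ⟨φ x, x, rfl⟩ := Subtype.ext hx.symm
      rw [hy, he, hce])

theorem restrictedPElemSystem_le {F E : FusionSystem S} {H : Subgroup Ω → Prop}
    (hE : ∀ Q, F.IsCentric Q → H Q → pElemGroup F p Q ≤ E.autGroup Q) :
    restrictedPElemSystem F p H ≤ E := fun _ _ h => h.2 E hE

theorem restrictedPElemSystem_contains {F : FusionSystem S} {H : Subgroup Ω → Prop}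
    {Q : Subgroup Ω} (hQ : F.IsCentric Q) (hHQ : H Q) :
    pElemGroup F p Q ≤ (restrictedPElemSystem F p H).autGroup Q := fun α hα =>
  (mem_autGroup _ hQ.1).2 ⟨autGroup_mem_hom F hQ.1 (pElemGroup_le_autGroup F Q hα),
    fun E' hE' => autGroup_mem_hom E' hQ.1 (hE' Q hQ hHQ hα)⟩

theorem restrictedPElemSystem_invariant {F : FusionSystem S} {H : Subgroup Ω → Prop}
    (hH : ∀ β ∈ F.autGroup S, ∀ Q, F.IsCentric Q → H Q → H (autImage β Q)) :
    InvT F (restrictedPElemSystem F p H) := by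
  intro β hβ P φ hφ
  have hP : P ≤ S := le_S F hφ.1
  have hcand : ∀ E' : FusionSystem S, (∀ Q, F.IsCentric Q → H Q → pElemGroup F p Q ≤ E'.autGroup Q) →
      (∀ Q, F.IsCentric Q → H Q → pElemGroup F p Q ≤ (transportSystem F E' β).autGroup Q) := by
    intro E' hE' Q hQ hHQ α hα
    refine (mem_autGroup _ hQ.1).2 ⟨autGroup_mem_hom F hQ.1 (pElemGroup_le_autGroup F Q hα), ?_⟩
    have hψ := restr_mem F hQ.1 (autGroup_mem_hom F le_rfl hβ)
    have hr : (restr hQ.1 (S.subtype.comp β.toMonoidHom)).range = autImage β Q := range_restr hQ.1 _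
    have h1 := hE' _ (isCentric_autImage F hβ hQ) (hH β hβ Q hQ hHQ)
      (autCongr_mem_pElemGroup F (toIso_isIso F hψ hr) hα)
    refine ⟨_, autGroup_mem_hom E' (autImage_le β Q) h1, fun x h => ?_⟩
    have hx : (⟨autExt β x, h⟩ : autImage β Q) = toIso F hψ hr x :=
      Subtype.ext (autExt_of_mem β (hQ.1 x.2))
    show ((MulAut.congr (toIso F hψ hr) α ⟨autExt β x, h⟩ : autImage β Q) : Ω) = autExt β (α x : Ω)
    rw [hx, autCongr_apply, MulEquiv.symm_apply_apply]
    exact (autExt_of_mem β (hQ.1 (α x).2)).symm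
  -- the transported map, built in `F`
  have hψ := restr_mem F hP (autGroup_mem_hom F le_rfl hβ)
  have hr : (restr hP (S.subtype.comp β.toMonoidHom)).range = autImage β P := range_restr hP _
  set e := toIso F hψ hr
  have hv : ∀ y, φ (e.symm y) ∈ S := fun y => map_mem_S F hφ.1 _
  let χ : autImage β P →* Ω :=
    (S.subtype.comp β.toMonoidHom).comp ((φ.comp e.symm.toMonoidHom).codRestrict S hv)
  have hχe : ∀ (x : P) (h : autExt β x ∈ autImage β P), χ ⟨autExt β x, h⟩ = autExt β (φ x) := by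
    intro x h
    have hx : (⟨autExt β x, h⟩ : autImage β P) = e x := Subtype.ext (autExt_of_mem β (hP x.2))
    rw [hx, autExt_of_mem β (map_mem_S F hφ.1 x)]
    exact congrArg (fun w => ((β w : S) : Ω))
      (Subtype.ext (congrArg φ (e.symm_apply_apply x)))
  refine ⟨χ, ⟨?_, fun E' hE' => ?_⟩, hχe⟩
  · have h1 : (φ.comp e.symm.toMonoidHom) ∈ F.Hom (autImage β P) :=
      comp_mem' F (toIso_isIso F hψ hr).symm hφ.1 (fun y => (e.symm y).2) fun _ => rfl
    exact comp_mem' F h1 (autGroup_mem_hom F le_rfl hβ) hv fun _ => rfl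
  · obtain ⟨-, c, hc, hce⟩ := hφ.2 _ (hcand E' hE')
    refine mem_hom_congr E' hc fun y => ?_
    obtain ⟨x, hx, hxT, hxy⟩ := exists_autExt_eq β y
    have hy : y = ⟨autExt β (⟨x, hx⟩ : P), autExt_mem_autImage β hP hx⟩ := Subtype.ext hxy.symm
    rw [hy, hχe, hce]

/-- Conjugating an automorphism in the generated subsystem by any map of `F` stays in it. -/
theorem autCongr_mem_of_decomp {F E₀ : FusionSystem S} (hI : InvT F E₀)
    (hdec : ∀ (P : Subgroup Ω) (φ : P →* Ω), φ ∈ F.Hom P → Decomp F E₀ P φ)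
    {R P : Subgroup Ω} {f : R ≃* P} (hf : IsIso F f)
    {u : MulAut R} (hu : u ∈ E₀.autGroup R) :
    MulAut.congr f u ∈ E₀.autGroup P := by
  have hR := hf.le_left
  have hP := hf.le_right
  obtain ⟨γ, hγ, e, he, hfe⟩ := hdec _ _ hf
  have hr := rfl (a := e.range)
  set ei := toIso E₀ he hr
  have hei : IsIso E₀ ei := toIso_isIso E₀ he hr
  have hc := (hei.symm.trans ((mem_autGroup E₀ hR).1 hu)).trans hei
  obtain ⟨χ, hχ, hχe⟩ := hI γ hγ _ _ hc
  have hrS : e.range ≤ S := range_le_S E₀ he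
  have hle : P ≤ autImage γ e.range := by
    intro y hy
    have h1 := autExt_mem_autImage γ hrS (x := e (f.symm ⟨y, hy⟩)) ⟨_, rfl⟩
    rw [← hfe] at h1
    simpa using h1
  refine (mem_autGroup E₀ hP).2 (mem_hom_congr E₀ (restr_mem E₀ hle hχ) fun y => ?_)
  obtain ⟨x, rfl⟩ := f.surjective y
  show ((MulAut.congr f u (f x) : P) : Ω) = χ ⟨(f x : Ω), hle (f x).2⟩
  have e2 : (⟨(f x : Ω), hle (f x).2⟩ : autImage γ e.range) =
      ⟨_, autExt_mem_autImage γ hrS (ei x).2⟩ := Subtype.ext (hfe x)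
  rw [e2, hχe (ei x) _, autCongr_apply, MulEquiv.symm_apply_apply]
  refine (hfe (u x)).trans ?_
  show autExt γ (e (u x)) = autExt γ ((ei (u (ei.symm (ei x))) : e.range) : Ω)
  rw [MulEquiv.symm_apply_apply]
  rfl

/-- The generated subsystem has index prime to `p`. -/
theorem pElem_le_of_decomp [Finite S] [Fact p.Prime] (hS : IsPGroup p S) {F : FusionSystem S}
    (hF : F.IsSaturated p) {E₀ : FusionSystem S} (hI : InvT F E₀)
    (hdec : ∀ (P : Subgroup Ω) (φ : P →* Ω), φ ∈ F.Hom P → Decomp F E₀ P φ)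
    {P : Subgroup Ω} (hP : P ≤ S) :
    pElemGroup F p P ≤ E₀.autGroup P := by
  obtain ⟨R, hPR, hR⟩ := exists_fullyNormalized F hP
  obtain ⟨f, hf⟩ := (isConj_iff_exists_iso F).1 hPR
  suffices hRR : pElemGroup F p R ≤ E₀.autGroup R by
    intro α hα
    have h1 := autCongr_mem_of_decomp hI hdec hf.symm (hRR (autCongr_mem_pElemGroup F hf hα))
    have e : MulAut.congr f.symm (MulAut.congr f α) = α := by
      ext x
      simp [autCongr_apply]
    rwa [e] at h1
  haveI : Finite R := finite_of_le ‹_› hR.1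
  rw [pElemGroup, Subgroup.map_le_iff_le_comap, Subgroup.closure_le]
  intro a ha
  obtain ⟨k, hk⟩ := ha
  have hA : IsPGroup p (Subgroup.zpowers (a : MulAut R)) := by
    refine IsPGroup.of_card (n := k) ?_
    rw [Nat.card_zpowers, Subgroup.orderOf_coe, hk]
  obtain ⟨χ, hχ, hconj⟩ := exists_conj_le_autInducedBy (saturated_fullyNormalized hS hF hR).2 hA
    (Subgroup.zpowers_le.2 a.2)
  have h1 := autInducedBy_le_autGroup E₀ hR.1
    (hconj a (Subgroup.mem_zpowers _))
  have h2 := autCongr_mem_of_decomp hI hdec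
    ((mem_autGroup F hR.1).1 ((F.autGroup R).inv_mem hχ)) h1
  have e : MulAut.congr χ⁻¹ (χ * (a : MulAut R) * χ⁻¹) = a := by
    ext x
    simp [autCongr_apply, MulAut.inv_def]
  rwa [e] at h2

/-- Every map is an automorphism of `S` composed with a map of the restricted system. -/
theorem restrictedPElem_decomp [Finite S] [Fact p.Prime] (hS : IsPGroup p S)
    {F : FusionSystem S} (hF : F.IsSaturated p) {H : Subgroup Ω → Prop}
    (hH : ∀ β ∈ F.autGroup S, ∀ Q, F.IsCentric Q → H Q → H (autImage β Q))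
    (hess : ∀ R, F.IsEssential p R → H R) {P : Subgroup Ω} {φ : P →* Ω} (hφ : φ ∈ F.Hom P) :
    Decomp F (restrictedPElemSystem F p H) P φ := by
  set E₀ := restrictedPElemSystem F p H
  have hI : InvT F E₀ := restrictedPElemSystem_invariant hH
  have hone : ∀ {P : Subgroup Ω} {f : P →* Ω}, f ∈ E₀.Hom P → Decomp F E₀ P f :=
    fun {P f} hf => ⟨1, one_mem _, f, hf,
      fun x => (autExt_of_mem (1 : MulAut S) (map_mem_S E₀ hf x)).symm⟩
  let D : FusionSystem S := subSystem F (fun P φ => Decomp F E₀ P φ)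
    (fun hP hg => hone (E₀.conj_mem hP hg))
    (fun _ _ a b h => decomp_comp hI a b h)
    (fun {P φ} hφ a ψ hψ he => by
      obtain ⟨α, hα, f, hf, hfe⟩ := decomp_symm hI (toIso F hφ rfl) a
      refine ⟨α, hα, f, hf, fun y => ?_⟩
      rw [← hfe y]
      obtain ⟨x, hx⟩ := y.2
      have hy : y = ⟨φ x, x, rfl⟩ := Subtype.ext hx.symm
      rw [hy, he x]
      exact (congrArg Subtype.val ((toIso F hφ rfl).symm_apply_apply x)).symm)
  suffices h : F ≤ D from (h P hφ).2
  refine hom_subset_of_essential_step hS hF D fun R hRcase ih α hα => ?_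
  have hRS : R ≤ S := by
    rcases hRcase with rfl | h
    · exact le_rfl
    · exact h.1.1
  refine (mem_autGroup D hRS).2 ⟨autGroup_mem_hom F hRS hα, ?_⟩
  rcases hRS.eq_or_lt with rfl | hlt
  · exact ⟨α, hα, _, subtype_mem _ le_rfl, fun x => (autExt_of_mem α x.2).symm⟩
  have hRe : F.IsEssential p R := hRcase.resolve_left hlt.ne
  have hR : F.IsFullyNormalized R := hRe.2.1
  have hcent : F.IsCentric R := hRe.1
  have hext : ∀ {N : Subgroup Ω} {ψ : N →* Ω} (hRN : R < N) {a : MulAut R},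
      ψ ∈ F.Hom N → (∀ x : R, ψ (Subgroup.inclusion hRN.le x) = a x) →
      Decomp F E₀ R (fun x => (a x : Ω)) := by
    intro N ψ hRN a hψ he
    exact decomp_restrict (ih N (le_S F hψ) (card_lt_of_lt (le_S F hψ) hRN) hψ).2 hRN.le
      fun x => (he x).symm
  have hcontains : pElemGroup F p R ≤ E₀.autGroup R :=
    restrictedPElemSystem_contains hcent (hess R hRe)
  set K := Subgroup.closure {α : F.autGroup R | ∃ k : ℕ, orderOf α = p ^ k}
  haveI hKn : K.Normal := by
    refine ⟨fun n hn g => ?_⟩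
    induction hn using Subgroup.closure_induction with
    | mem x hx =>
      obtain ⟨k, hk⟩ := hx
      exact Subgroup.subset_closure ⟨k, ((MulAut.conj g).orderOf_eq x).trans hk⟩
    | one => simp
    | mul x y _ _ hx hy =>
      have h := K.mul_mem hx hy
      have e : g * x * g⁻¹ * (g * y * g⁻¹) = g * (x * y) * g⁻¹ := by group
      rwa [e] at h
    | inv x _ hx =>
      have h := K.inv_mem hx
      have e : (g * x * g⁻¹)⁻¹ = g * x⁻¹ * g⁻¹ := by group
      rwa [e] at h
  obtain ⟨h, k, N, N', en, hRN, hak, hk, hen, -, -, hag, hextK⟩ :=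
    Cfsg.Agent.FusionAux.exists_frattini_extend hS hF hR K ⟨α, hα⟩
  have hN : normalizerIn S R ≤ N := fun g hg => by
    have hc : R.normalizerMonoidHom ⟨g, hg.2⟩ ∈ autInducedBy S R :=
      mem_autInducedBy.2 ⟨g, hg.1, fun _ => rfl⟩
    refine hextK g hg ⟨⟨_, autInducedBy_le_autGroup F hR.1 hc⟩, Subgroup.subset_closure ?_,
      fun _ => rfl⟩
    obtain ⟨m, hm⟩ := isPGroup_autInducedBy hS R ⟨_, hc⟩
    obtain ⟨j, -, hj⟩ := (Nat.dvd_prime_pow (Fact.out : p.Prime)).1 (orderOf_dvd_of_pow_eq_one hm)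
    refine ⟨j, ?_⟩
    rw [Subgroup.orderOf_mk]
    rwa [Subgroup.orderOf_mk] at hj
  have hdh : Decomp F E₀ R (fun x => ((h : MulAut R) x : Ω)) :=
    hext (lt_normalizerIn hS hlt) (restr_mem F hN hen) fun x => hag x
  have hdk : Decomp F E₀ R (fun x => ((k : MulAut R) x : Ω)) :=
    hone (autGroup_mem_hom E₀ hR.1 (hcontains ⟨k, hk, rfl⟩))
  have h3 := decomp_comp hI hdk hdh fun x => ((k : MulAut R) x).2
  refine decomp_restrict h3 le_rfl fun x => ?_
  exact congrArg (fun m : F.autGroup R => (((m : MulAut R) x : R) : Ω)) hak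

end Cfsg.Agent.FusionSys
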