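import Cfsg.Agent.FusionSys.CharacterExtension
import Cfsg.Agent.FusionSys.RestrictedPElem
import Cfsg.Agent.FusionBatch.Basic
import Cfsg.Agent.Cores.Basic
import Cfsg.Agent.FusionCrit.Centric

/-!
The subsystem of index prime to `p` cut out by a character of order prime to `p` of `Aut_F(T)` that is
trivial on `Aut_E(T)`, for a weakly normal subsystem `E` over `T`.
-/

set_option autoImplicit false

open Cfsg Cfsg.FusionSystem
open Cfsg.Agent.FusionSys Cfsg.Agent.FusionAlperin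
open Cfsg.Agent.S5119 (InvT autExt_inv autExt_inv' autExt_mul)

namespace Cfsg.Agent.FusionSys

variable {Ω : Type*} [Group Ω] {S T : Subgroup Ω} {F : FusionSystem S} {E : FusionSystem T}
  {p : ℕ}

/-- An element of `T` normalizing `Q`, outside `Q`, centralizing `Q ⊓ T`. -/
def TWitness (S T Q : Subgroup Ω) : Prop :=
  ∃ x, x ∈ normalizerIn S Q ∧ x ∉ Q ∧ x ∈ T ∧ ∀ y ∈ Q ⊓ T, x * y = y * x

theorem mem_normalizer_inf {A B : Subgroup Ω} {g : Ω}
    (hA : g ∈ Subgroup.normalizer (A : Set Ω)) (hB : g ∈ Subgroup.normalizer (B : Set Ω)) :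
    g ∈ Subgroup.normalizer ((A ⊓ B : Subgroup Ω) : Set Ω) :=
  Subgroup.mem_normalizer_iff.2 fun x =>
    and_congr (Subgroup.mem_normalizer_iff.1 hA x) (Subgroup.mem_normalizer_iff.1 hB x)

theorem isConj_inf_stronglyClosed (hT : F.StronglyClosed T) {P Q : Subgroup Ω}
    (h : F.IsConj P Q) : F.IsConj (P ⊓ T) (Q ⊓ T) := by
  obtain ⟨φ, hφ, rfl⟩ := h
  refine ⟨_, restr_mem F inf_le_left hφ, le_antisymm ?_ ?_⟩
  · rintro _ ⟨x, rfl⟩
    exact ⟨⟨_, rfl⟩, sc_map_mem hT hφ (x := ⟨x, (inf_le_left : P ⊓ T ≤ P) x.2⟩) x.2.2⟩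
  · rintro y ⟨⟨x, rfl⟩, hy⟩
    obtain ⟨c, hc, hce⟩ := F.inv_mem hφ
    have hx : (x : Ω) ∈ T := by
      have h1 := sc_map_mem hT hc (x := ⟨φ x, x, rfl⟩) hy
      rwa [hce] at h1
    exact ⟨⟨x, x.2, hx⟩, rfl⟩

variable [Finite S] [Fact p.Prime]

/-- If `P ⊓ T` is not `T`-centric some conjugate of `P` has a witness. -/
theorem exists_conj_witness (hS : IsPGroup p S) (hF : F.IsSaturated p) (hT : F.StronglyClosed T)
    {P : Subgroup Ω} (hP : P ≤ S) (hnc : ¬ TCentric F T (P ⊓ T)) :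
    ∃ Q, F.IsConj P Q ∧ TWitness S T Q := by
  have hPT : P ⊓ T ≤ S := inf_le_left.trans hP
  obtain ⟨R, hR, hRc⟩ : ∃ R, F.IsConj (P ⊓ T) R ∧ ¬ centralizerIn T R ≤ R := by
    by_contra hcon
    push Not at hcon
    exact hnc ⟨inf_le_right, hcon⟩
  obtain ⟨c, hc, hcR⟩ := SetLike.not_le_iff_exists.1 hRc
  obtain ⟨X₀, hX, hX₀⟩ := exists_fullyNormalized F hPT
  have hX₀S := hX₀.1
  have hPN : P ≤ normalizerIn S (P ⊓ T) := fun g hg => ⟨hP hg,
    mem_normalizer_inf (Subgroup.le_normalizer hg) (sc_le_normalizer hT (hP hg))⟩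
  obtain ⟨θ, hθ, -, hθm⟩ := exists_normalizer_map_fullyNormalized hS hF hX₀ hX
  set Q := (restr hPN θ).range with hQdef
  have hQ : F.IsConj P Q := ⟨_, restr_mem F hPN hθ, rfl⟩
  have hQS : Q ≤ S := isConj_le_right hQ
  refine ⟨Q, hQ, ?_⟩
  have hQT : Q ⊓ T = X₀ := by
    refine le_antisymm ?_ ?_
    · rintro y ⟨⟨x, rfl⟩, hy⟩
      obtain ⟨d, hd, hde⟩ := F.inv_mem (restr_mem F hPN hθ)
      have hx : (x : Ω) ∈ T := by
        have h1 := sc_map_mem hT hd (x := ⟨_, x, rfl⟩) hy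
        rwa [hde] at h1
      exact hθm.le ((mem_map_subgroupOf θ).2 ⟨⟨x, hPN x.2⟩, ⟨x.2, hx⟩, rfl⟩)
    · intro y hy
      obtain ⟨x, hx, rfl⟩ := (mem_map_subgroupOf θ).1 (hθm.ge hy)
      exact ⟨⟨⟨x, hx.1⟩, rfl⟩, sc_map_mem hT hθ hx.2⟩
  -- `C_T(X₀)` is not inside `X₀`
  obtain ⟨f, hf, hfr⟩ := isConj_trans (isConj_symm hR) hX
  have hrec := saturated_receptive_of_fullyNormalized hS hF hX₀
  obtain ⟨ψ, hψ, hψe⟩ := hrec.2 R f hf hfr
  have hRS : R ≤ S := le_S F hf
  have hcN : c ∈ extender S R f := centralizerIn_le_extender f ⟨hT.1 hc.1, hc.2⟩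
  have hRN : R ≤ extender S R f := le_extender hRS (map_mem_S F hf)
  set c₀ := ψ ⟨c, hcN⟩
  have hc₀T : c₀ ∈ T := sc_map_mem hT hψ hc.1
  have hc₀C : ∀ y ∈ X₀, c₀ * y = y * c₀ := by
    intro y hy
    obtain ⟨r, rfl⟩ := hfr.ge hy
    rw [← hψe r r.2 (hRN r.2), ← map_mul, ← map_mul]
    exact congrArg ψ (Subtype.ext (Subgroup.mem_centralizer_iff.1 hc.2 r r.2).symm)
  have hc₀X : c₀ ∉ X₀ := by
    intro hy
    obtain ⟨r, hr⟩ := hfr.ge hy
    refine hcR ?_
    have h1 : ψ ⟨r, hRN r.2⟩ = ψ ⟨c, hcN⟩ := (hψe r r.2 _).trans hr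
    have h2 : (r : Ω) = c := congrArg Subtype.val (F.injective_of_mem hψ h1)
    exact h2 ▸ r.2
  -- the normalizer grows inside `Q C_T(X₀)`
  set C := centralizerIn T X₀
  have hCS : C ≤ S := (centralizerIn_le X₀).trans hT.1
  have hQC : Q ≤ Subgroup.normalizer (C : Set Ω) := by
    intro q hq
    have hqS := hQS hq
    have hqX : q ∈ Subgroup.normalizer (X₀ : Set Ω) := by
      rw [← hQT]
      exact mem_normalizer_inf (Subgroup.le_normalizer hq) (sc_le_normalizer hT hqS)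
    have key : ∀ g : Ω, g ∈ S → g ∈ Subgroup.normalizer (X₀ : Set Ω) →
        ∀ z ∈ C, g * z * g⁻¹ ∈ C := by
      intro g hgS hg z hz
      refine ⟨sc_conj_mem hT hgS hz.1, Subgroup.mem_centralizer_iff.2 fun r hr => ?_⟩
      have h1 := (Subgroup.mem_normalizer_iff.1 ((Subgroup.normalizer _).inv_mem hg) r).1 hr
      rw [inv_inv] at h1
      calc r * (g * z * g⁻¹) = g * ((g⁻¹ * r * g) * z) * g⁻¹ := by group
        _ = g * (z * (g⁻¹ * r * g)) * g⁻¹ := by
          rw [Subgroup.mem_centralizer_iff.1 hz.2 _ h1]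
        _ = g * z * g⁻¹ * r := by group
    refine Subgroup.mem_normalizer_iff.2 fun z => ⟨key q hqS hqX z, fun hz => ?_⟩
    have := key q⁻¹ (S.inv_mem hqS) ((Subgroup.normalizer _).inv_mem hqX) _ hz
    simpa [mul_assoc] using this
  have hnle : ¬ C ≤ Q := by
    intro hle
    have h1 : c₀ ∈ C := ⟨hc₀T, Subgroup.mem_centralizer_iff.2 fun y hy => (hc₀C y hy).symm⟩
    exact hc₀X (hQT.le ⟨hle h1, hc₀T⟩)
  by_contra hcon
  refine hnle (le_sup_right.trans (FusionAlperin.le_of_normalizer_self hS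
    (sup_le hQS hCS) le_sup_left fun x hx hxN => ?_))
  have hx' : x ∈ ((Q ⊔ C : Subgroup Ω) : Set Ω) := hx
  rw [Subgroup.coe_mul_of_left_le_normalizer_right Q _ hQC] at hx'
  obtain ⟨q, hq, y, hy, rfl⟩ := hx'
  by_contra hout
  refine hcon ⟨y, ⟨hCS hy, ?_⟩, fun hyQ => hout (Q.mul_mem hq hyQ), hy.1, fun z hz => ?_⟩
  · have := mul_mem (inv_mem (Subgroup.le_normalizer hq)) hxN
    rwa [inv_mul_cancel_left] at this
  · exact (Subgroup.mem_centralizer_iff.1 hy.2 z (hQT.le hz)).symm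

/-- A witness gives an element of `O_p(Aut_G(Q))`, for any subsystem `G` of `F`. -/
theorem witness_mem_pCore (hS : IsPGroup p S) (hT : F.StronglyClosed T) {G : FusionSystem S}
    (hG : G ≤ F) {Q : Subgroup Ω} (hQ : Q ≤ S) {x : Ω} (hx : x ∈ normalizerIn S Q)
    (hxT : x ∈ T) (hxc : ∀ y ∈ Q ⊓ T, x * y = y * x) :
    Q.normalizerMonoidHom ⟨x, hx.2⟩ ∈ (pCore p (G.autGroup Q)).map (G.autGroup Q).subtype := by
  have hpres : ∀ a ∈ G.autGroup Q, ∀ y : Q, (y : Ω) ∈ T → ((a y : Q) : Ω) ∈ T := fun a ha y hy =>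
    sc_map_mem hT (hG Q (autGroup_mem_hom G hQ ha)) hy
  let M : Subgroup (G.autGroup Q) :=
    { carrier := {a | (∀ y : Q, (y : Ω) ∈ T → (a : MulAut Q) y = y) ∧
        ∀ y : Q, ((y⁻¹ * (a : MulAut Q) y : Q) : Ω) ∈ T}
      one_mem' := ⟨fun y _ => rfl, fun y => by simp⟩
      mul_mem' := fun {a b} ha hb => ⟨fun y hy => by
          rw [Subgroup.coe_mul, MulAut.mul_apply, hb.1 y hy, ha.1 y hy], fun y => by
          have e : y⁻¹ * ((a * b : G.autGroup Q) : MulAut Q) y =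
              (y⁻¹ * (b : MulAut Q) y) *
                (((b : MulAut Q) y)⁻¹ * (a : MulAut Q) ((b : MulAut Q) y)) := by
            rw [Subgroup.coe_mul, MulAut.mul_apply]; group
          rw [e, Subgroup.coe_mul]
          exact T.mul_mem (hb.2 y) (ha.2 _)⟩
      inv_mem' := fun {a} ha => ⟨fun y hy =>
          (a : MulAut Q).injective (((a : MulAut Q).apply_symm_apply y).trans (ha.1 y hy).symm),
        fun y => by
          have h := T.inv_mem (ha.2 ((a : MulAut Q).symm y))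
          rw [MulEquiv.apply_symm_apply, ← Subgroup.coe_inv, mul_inv_rev, inv_inv] at h
          exact h⟩ }
  have hMn : M.Normal := by
    refine ⟨fun a ha b => ?_⟩
    refine ⟨fun y hy => ?_, fun y => ?_⟩
    · show (b : MulAut Q) ((a : MulAut Q) ((b : MulAut Q)⁻¹ y)) = y
      rw [ha.1 _ (hpres _ (inv_mem b.2) y hy)]
      exact (b : MulAut Q).apply_symm_apply y
    · set w := (b : MulAut Q)⁻¹ y with hw
      have e : y⁻¹ * ((b * a * b⁻¹ : G.autGroup Q) : MulAut Q) y =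
          (b : MulAut Q) (w⁻¹ * (a : MulAut Q) w) := by
        rw [map_mul, map_inv, hw]
        show _ = ((b : MulAut Q) ((b : MulAut Q).symm y))⁻¹ * _
        rw [MulEquiv.apply_symm_apply]
        rfl
      rw [e]
      exact hpres _ b.2 _ (ha.2 w)
  haveI : Finite Q := finite_of_le ‹_› hQ
  obtain ⟨k, hk⟩ := IsPGroup.iff_card.1 (hS.to_le hQ)
  have hMp : IsPGroup p M := fun a => ⟨k, Subtype.ext (Subtype.ext (MulEquiv.ext fun y => by
    show (((a : G.autGroup Q) : MulAut Q) ^ p ^ k) y = y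
    refine Cfsg.Agent.FusionAux.pow_fix_of_fix (A := T.subgroupOf Q) (fun z hz => a.2.1 z hz)
      (a.2.2 y) ?_
    rw [← hk]
    exact pow_card_eq_one'))⟩
  have hcx : Q.normalizerMonoidHom ⟨x, hx.2⟩ ∈ G.autGroup Q :=
    autInducedBy_le_autGroup G hQ (mem_autInducedBy.2 ⟨x, hx.1, fun _ => rfl⟩)
  refine ⟨⟨_, hcx⟩, Cfsg.Agent.Cores.le_pCore hMn hMp ⟨fun y hy => Subtype.ext ?_, fun y => ?_⟩, rfl⟩
  · show x * (y : Ω) * x⁻¹ = y
    rw [hxc y ⟨y.2, hy⟩, mul_inv_cancel_right]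
  · show (y : Ω)⁻¹ * (x * (y : Ω) * x⁻¹) ∈ T
    have h1 := sc_conj_mem hT (S.inv_mem (hQ y.2)) hxT
    rw [inv_inv] at h1
    have := T.mul_mem h1 (T.inv_mem hxT)
    simpa [mul_assoc] using this

theorem not_autCore_le_inn (hS : IsPGroup p S) (hT : F.StronglyClosed T) {G : FusionSystem S}
    (hG : G ≤ F) {Q : Subgroup Ω} (hQc : F.IsCentric Q) (hw : TWitness S T Q) :
    ¬ (autInducedBy S Q ⊓ autCore G p Q ≤ Inn Q) := by
  obtain ⟨x, hx, hxQ, hxT, hxc⟩ := hw
  intro h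
  refine hxQ ((autInducedBy_mem_inn_iff hQc hx).1 (h ⟨?_, ?_⟩))
  · exact mem_autInducedBy.2 ⟨x, hx.1, fun _ => rfl⟩
  · exact witness_mem_pCore hS hT hG hQc.1 hx hxT hxc

/-- An essential subgroup meets `T` in a `T`-centric subgroup. -/
theorem tCentric_of_essential (hS : IsPGroup p S) (hF : F.IsSaturated p) (hT : F.StronglyClosed T)
    {R : Subgroup Ω} (hR : F.IsEssential p R) : TCentric F T (R ⊓ T) := by
  by_contra hnc
  obtain ⟨Q, hRQ, x, hx, hxQ, hxT, hxc⟩ := exists_conj_witness hS hF hT hR.1.1 hnc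
  have hQc := isCentric_of_isConj hR.1 hRQ
  haveI : Finite R := finite_of_le ‹_› hR.1.1
  obtain ⟨e, he⟩ := (isConj_iff_exists_iso F).1 hRQ
  obtain ⟨a, ha, hae⟩ := witness_mem_pCore (p := p) hS hT (le_refl' F) hQc.1 hx hxT hxc
  set g := autGroupCongr F he
  have hg : g.symm a ∈ pCore p (F.autGroup R) := by
    have hn : ((pCore p (F.autGroup Q)).map g.symm.toMonoidHom).Normal :=
      Subgroup.Normal.map inferInstance _ g.symm.surjective
    exact Cfsg.Agent.Cores.le_pCore hn (Cfsg.Agent.Cores.pCore_isPGroup.map _) ⟨a, ha, rfl⟩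
  have hrad := Cfsg.Agent.FusionBatch.radical_of_essential (hS := hS) hR
  obtain ⟨r, hr⟩ : ((g.symm a : F.autGroup R) : MulAut R) ∈ Inn R := hrad.2.le ⟨_, hg, rfl⟩
  refine hxQ ((autInducedBy_mem_inn_iff hQc hx).1 ?_)
  rw [← hae]
  refine ⟨e r, MulEquiv.ext fun y => ?_⟩
  have e1 : (a : MulAut Q) = MulAut.congr e ((g.symm a : F.autGroup R) : MulAut R) := by
    rw [← autGroupCongr_coe F he, MulEquiv.apply_symm_apply]
  show _ = (a : MulAut Q) y
  rw [e1, ← hr, autCongr_apply]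
  simp [MulAut.conj_apply]
where le_refl' (F : FusionSystem S) : F ≤ F := fun _ _ h => h


/-- Restriction `Aut_F(S) →* Aut_F(T)`. -/
noncomputable def restrictT (hT : F.StronglyClosed T) : F.autGroup S →* F.autGroup T :=
  haveI : Finite T := finite_of_le ‹_› hT.1
  have hres : ∀ a : F.autGroup S,
      restr hT.1 (S.subtype.comp (a : MulAut S).toMonoidHom) ∈ F.Hom T := fun a =>
    restr_mem F hT.1 (autGroup_mem_hom F le_rfl a.2)
  have hr : ∀ a : F.autGroup S,
      (restr hT.1 (S.subtype.comp (a : MulAut S).toMonoidHom)).range = T := fun a =>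
    range_eq_of_image_le (F.injective_of_mem (hres a))
      (by rintro _ ⟨x, rfl⟩; exact sc_map_mem hT (hres a) x.2) le_rfl
  { toFun := fun a => ⟨toIso F (hres a) (hr a), toIso_mem_autGroup F (hres a) (hr a)⟩
    map_one' := Subtype.ext (MulEquiv.ext fun x => Subtype.ext rfl)
    map_mul' := fun a b => Subtype.ext (MulEquiv.ext fun x => Subtype.ext rfl) }

theorem restrictT_apply (hT : F.StronglyClosed T) (a : F.autGroup S) {x : Ω} (hx : x ∈ T) :
    autExt ((restrictT hT a : F.autGroup T) : MulAut T) x = autExt (a : MulAut S) x := by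
  rw [autExt_of_mem _ hx, autExt_of_mem _ (hT.1 hx)]
  rfl

variable {Δ : Type*} [Group Δ] [Finite Δ]

/-- The kernel of the character on `Aut_F(S)`. -/
noncomputable def charKernelAut (χ : F.autGroup T →* Δ) (hT : F.StronglyClosed T) :
    Subgroup (MulAut S) :=
  (χ.comp (restrictT hT)).ker.map (F.autGroup S).subtype

theorem charKernelAut_le (χ : F.autGroup T →* Δ) (hT : F.StronglyClosed T) :
    charKernelAut χ hT ≤ F.autGroup S := Subgroup.map_subtype_le _

theorem mem_charKernelAut {χ : F.autGroup T →* Δ} {hT : F.StronglyClosed T} {β : MulAut S}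
    (hβ : β ∈ F.autGroup S) :
    β ∈ charKernelAut χ hT ↔ χ (restrictT hT ⟨β, hβ⟩) = 1 := by
  constructor
  · rintro ⟨a, ha, hae⟩
    obtain rfl : a = ⟨β, hβ⟩ := Subtype.ext hae
    exact ha
  · exact fun h => ⟨⟨β, hβ⟩, h, rfl⟩

theorem charKernelAut_conj (χ : F.autGroup T →* Δ) (hT : F.StronglyClosed T) {β η : MulAut S}
    (hβ : β ∈ F.autGroup S) (hη : η ∈ charKernelAut χ hT) :
    β * η * β⁻¹ ∈ charKernelAut χ hT := by
  have hηF := charKernelAut_le χ hT hη
  rw [mem_charKernelAut hηF] at hη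
  rw [mem_charKernelAut (mul_mem (mul_mem hβ hηF) (inv_mem hβ))]
  have e : (⟨β * η * β⁻¹, mul_mem (mul_mem hβ hηF) (inv_mem hβ)⟩ : F.autGroup S) =
      ⟨β, hβ⟩ * ⟨η, hηF⟩ * ⟨β, hβ⟩⁻¹ := rfl
  rw [e, map_mul, map_mul, map_inv, map_mul, map_mul, map_inv, hη, mul_one, mul_inv_cancel]

/-- An automorphism of `S` agreeing with a map of the `p`-element system on a subgroup meeting `T`
in a `T`-centric subgroup is in the kernel. -/
theorem mem_charKernel_of_agree (hS : IsPGroup p S) (hE : E.IsInvariantIn F)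
    (hEs : E.IsSaturated p) {χ : F.autGroup T →* Δ} (hΔ : (Nat.card Δ).Coprime p)
    (hker : (E.autGroup T).subgroupOf (F.autGroup T) ≤ χ.ker) {β : MulAut S}
    (hβ : β ∈ F.autGroup S) {P : Subgroup Ω} (hP : TCentric F T (P ⊓ T)) {φ : P →* Ω}
    (hφ : φ ∈ (centricPElemSystem F p).Hom P) (he : ∀ x : P, φ x = autExt β x) :
    β ∈ charKernelAut χ hE.2.1 := by
  rw [mem_charKernelAut hβ]
  have h1 := (centricPElemSystem_le (pElem_le_charSystem hS hE hEs hΔ hker) P hφ).2 hP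
  refine charUnique hS hE hEs hΔ hker _ (P ⊓ T) hP rfl _ _ _
    (CharVal.restrict (CharVal.of_aut (χ := χ) _ (inf_le_right : P ⊓ T ≤ T)) le_rfl fun x => ?_) h1
  rw [restrictT_apply hE.2.1 ⟨β, hβ⟩ ((inf_le_right : P ⊓ T ≤ T) x.2)]
  exact he ⟨x, (inf_le_left : P ⊓ T ≤ P) x.2⟩

/-- The subsystem cut out by the character. -/
noncomputable def charKernelSystem (χ : F.autGroup T →* Δ) (hT : F.StronglyClosed T) (p : ℕ) :
    FusionSystem S :=
  subSystem F (fun P φ => DecompIn (charKernelAut χ hT) (centricPElemSystem F p) P φ)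
    (fun hP hg => ⟨1, one_mem _, _, (centricPElemSystem F p).conj_mem hP hg, fun x =>
      (autExt_of_mem (1 : MulAut S) (map_mem_S (centricPElemSystem F p)
        ((centricPElemSystem F p).conj_mem hP hg) x)).symm⟩)
    (fun _ _ a b h =>
      decompIn_comp (charKernelAut_le χ hT) (centricPElemSystem_invariant F) a b h)
    (fun {P φ} hφ a ψ _ he => by
      obtain ⟨α, hα, f, hf, hfe⟩ := decompIn_symm (charKernelAut_le χ hT)
        (centricPElemSystem_invariant F) (toIso F hφ rfl) a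
      refine ⟨α, hα, f, hf, fun y => ?_⟩
      rw [← hfe y]
      obtain ⟨x, hx⟩ := y.2
      have hy : y = ⟨φ x, x, rfl⟩ := Subtype.ext hx.symm
      rw [hy, he x]
      exact (congrArg Subtype.val ((toIso F hφ rfl).symm_apply_apply x)).symm)

theorem charKernelSystem_le (χ : F.autGroup T →* Δ) (hT : F.StronglyClosed T) :
    charKernelSystem χ hT p ≤ F := fun _ _ h => h.1

theorem centricPElem_le_kernel (_hS : IsPGroup p S) (hT : F.StronglyClosed T)
    (χ : F.autGroup T →* Δ) (_ : True) :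
    centricPElemSystem F p ≤ charKernelSystem χ hT p := fun _ φ h =>
  ⟨h.1, 1, one_mem _, φ, h, fun x =>
    (autExt_of_mem (1 : MulAut S) (map_mem_S (centricPElemSystem F p) h x)).symm⟩

theorem charKernelAut_le_autGroup (χ : F.autGroup T →* Δ) (hT : F.StronglyClosed T) :
    charKernelAut χ hT ≤ (charKernelSystem χ hT p).autGroup S := fun α hα =>
  (mem_autGroup _ le_rfl).2 ⟨autGroup_mem_hom F le_rfl (charKernelAut_le χ hT hα), α, hα, _,
    subtype_mem _ le_rfl, fun x => (autExt_of_mem α x.2).symm⟩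

theorem tCentric_self (hT : F.StronglyClosed T) : TCentric F T T := by
  haveI : Finite T := finite_of_le ‹_› hT.1
  refine ⟨le_rfl, fun R hR => ?_⟩
  obtain ⟨χ, hχ, rfl⟩ := hR
  rw [range_eq_of_image_le (F.injective_of_mem hχ)
    (by rintro _ ⟨x, rfl⟩; exact sc_map_mem hT hχ x.2) le_rfl]
  exact centralizerIn_le T

theorem autGroup_charKernelSystem (hS : IsPGroup p S) (hE : E.IsInvariantIn F)
    (hEs : E.IsSaturated p) {χ : F.autGroup T →* Δ} (hΔ : (Nat.card Δ).Coprime p)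
    (hker : (E.autGroup T).subgroupOf (F.autGroup T) ≤ χ.ker) :
    (charKernelSystem χ hE.2.1 p).autGroup S = charKernelAut χ hE.2.1 := by
  refine le_antisymm (fun α hα => ?_) (charKernelAut_le_autGroup χ hE.2.1)
  obtain ⟨hαF, η, hη, φ₀, hφ₀, he⟩ := autGroup_mem_hom _ le_rfl hα
  have hαF' : α ∈ F.autGroup S := (mem_autGroup F le_rfl).2 hαF
  have hmem : η⁻¹ * α ∈ charKernelAut χ hE.2.1 := by
    refine mem_charKernel_of_agree hS hE hEs hΔ hker
      (mul_mem (inv_mem (charKernelAut_le χ _ hη)) hαF') (P := S) ?_ hφ₀ fun x => ?_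
    · rw [inf_eq_right.2 hE.2.1.1]
      exact tCentric_self hE.2.1
    · rw [autExt_mul _ _ x.2, autExt_of_mem α x.2,
        show ((α ⟨x, x.2⟩ : S) : Ω) = autExt η (φ₀ x) from he x,
        autExt_inv η (map_mem_S _ hφ₀ x)]
  have := mul_mem hη hmem
  rwa [mul_inv_cancel_left] at this

theorem charKernelSystem_saturated (hS : IsPGroup p S) (hF : F.IsSaturated p)
    (hE : E.IsInvariantIn F) (hEs : E.IsSaturated p) {χ : F.autGroup T →* Δ}
    (hΔ : (Nat.card Δ).Coprime p)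
    (hker : (E.autGroup T).subgroupOf (F.autGroup T) ≤ χ.ker) :
    (charKernelSystem χ hE.2.1 p).IsSaturated p := by
  have hT := hE.2.1
  set E₀ := centricPElemSystem F p
  set E₁ := charKernelSystem χ hT p with hE₁
  have hker' : True := trivial
  have hconjF : ∀ {P Q : Subgroup Ω}, E₁.IsConj P Q → F.IsConj P Q :=
    fun ⟨φ, hφ, h⟩ => ⟨φ, hφ.1, h⟩
  refine saturated_of_generated hS (ℋ := {P | F.IsCentric P ∧ TCentric F T (P ⊓ T)})
    (fun P hP Q hQ => ⟨isCentric_of_isConj hP.1 (hconjF hQ),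
      tCentric_of_isConj hT hP.2 (isConj_inf_stronglyClosed hT (hconjF hQ))⟩) (fun P hP => ?_)
    (fun E' hE' => ?_) (fun P hP hPn => ?_)
  · obtain ⟨Q, hPQ, hQ⟩ := exists_fullyNormalized F hP.1.1
    obtain ⟨f, hf⟩ := (isConj_iff_exists_iso F).1 hPQ
    obtain ⟨γ, -, e, he, hfe⟩ := centricPElem_decomp hS hF hf
    have heF := centricPElemSystem_sub F P he
    have hPR : F.IsConj P e.range := ⟨e, heF, rfl⟩
    have hRn : F.IsFullyNormalized e.range :=
      fullyNormalized_of_autExt hQ (range_le_S E₀ he)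
        (isConj_trans (isConj_symm hPR) hPQ) (toIso E₀ he rfl) f hfe
    refine ⟨e.range, ⟨e, centricPElem_le_kernel hS hT χ hker' P he, rfl⟩,
      fullyAutomized_of_le (charKernelSystem_le χ hT) (saturated_fullyNormalized hS hF hRn).2,
      hRn.1, fun P' φ hφ hrange => ?_⟩
    have hconjP : F.IsConj P P' := isConj_trans hPR (isConj_symm ⟨φ, hφ.1, hrange⟩)
    have hP' : F.IsCentric P' := isCentric_of_isConj hP.1 hconjP
    obtain ⟨ψ, hψ, hψe⟩ := (saturated_fullyCentralized hS hF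
      (saturated_fullyNormalized hS hF hRn).1).2 P' φ hφ.1 hrange
    refine ⟨ψ, ⟨hψ, ?_⟩, hψe⟩
    obtain ⟨α, hα, ψ₀, hψ₀, hψd⟩ := centricPElem_decomp hS hF hψ
    obtain ⟨η, hη, φ₀, hφ₀, hφd⟩ := hφ.2
    refine ⟨α, ?_, ψ₀, hψ₀, hψd⟩
    have hle : P' ≤ extender S P' φ := le_extender (le_S F hφ.1) (map_mem_S F hφ.1)
    have hψr := restr_mem E₀ hle hψ₀
    obtain ⟨c, hc, hce⟩ := E₀.inv_mem hψr
    have hcP : ∀ y, c y ∈ P' := by
      rintro ⟨_, x, rfl⟩
      rw [hce]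
      exact x.2
    have h0 := E₀.comp_mem hc hφ₀ hcP
    have hmem : η⁻¹ * α ∈ charKernelAut χ hT := by
      refine mem_charKernel_of_agree hS hE hEs hΔ hker
        (mul_mem ((F.autGroup S).inv_mem (charKernelAut_le χ hT hη)) hα)
        (tCentric_of_isConj hT hP.2 (isConj_inf_stronglyClosed hT
          (isConj_trans hconjP ⟨_, centricPElemSystem_sub F P' hψr, rfl⟩))) h0 ?_
      rintro ⟨_, x, rfl⟩
      show φ₀ ⟨c _, _⟩ = _
      have e1 : (⟨c ⟨restr hle ψ₀ x, x, rfl⟩, hcP _⟩ : P') = x := Subtype.ext (hce x)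
      rw [e1, autExt_mul _ _ (map_mem_S E₀ hψr x)]
      show φ₀ x = autExt η⁻¹ (autExt α (ψ₀ ⟨x, hle x.2⟩))
      rw [← hψd, hψe x x.2 (hle x.2), hφd, autExt_inv η (map_mem_S E₀ hφ₀ x)]
    have := mul_mem hη hmem
    rwa [mul_inv_cancel_left] at this
  · set H : Subgroup Ω → Prop := fun P => TCentric F T (P ⊓ T)
    have hH : ∀ β ∈ F.autGroup S, ∀ Q, F.IsCentric Q → H Q → H (autImage β Q) := fun β hβ Q hQ hHQ =>
      tCentric_of_isConj hT hHQ (isConj_inf_stronglyClosed hT (isConj_autImage F hβ hQ.1))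
    have h0 : E₀ ≤ E' := by
      suffices h : E₀ ≤ restrictedPElemSystem F p H from fun P φ hφ => (restrictedPElemSystem_le (F := F) (p := p) (H := H) fun Q hQ hHQ α hα =>
        (mem_autGroup E' hQ.1).2 (hE' Q ⟨hQ, hHQ⟩ (centricPElem_le_kernel hS hT χ hker' Q
          (autGroup_mem_hom E₀ hQ.1 (centricPElemSystem_contains F Q hQ hα))))) P (h P hφ)
      exact centricPElemSystem_le fun Q hQ => pElem_le_of_decomp hS hF
        (restrictedPElemSystem_invariant hH)
        (fun P φ hφ => restrictedPElem_decomp hS hF hH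
          (fun R hR => tCentric_of_essential hS hF hT hR) hφ) hQ.1
    have hK : charKernelAut χ hT ≤ E'.autGroup S := by
      intro α hα
      refine (mem_autGroup E' le_rfl).2 (hE' S ⟨Cfsg.Agent.FusionBatch.isCentric_self hS hF, ?_⟩ ?_)
      · rw [inf_eq_right.2 hT.1]
        exact tCentric_self hT
      · exact autGroup_mem_hom E₁ le_rfl (charKernelAut_le_autGroup χ hT hα)
    rintro P φ ⟨-, α, hα, φ₀, hφ₀, he⟩
    exact comp_mem' E' (h0 P hφ₀) (autGroup_mem_hom E' le_rfl (hK hα))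
      (map_mem_S (centricPElemSystem F p) hφ₀) fun x => (he x).trans (autExt_of_mem α _)
  · have hPc : F.IsCentric P := by
      refine ⟨hP.1, ?_⟩
      rintro Q ⟨f, hf, rfl⟩ c hc
      obtain ⟨α, -, e, he, hfe⟩ := centricPElem_decomp hS hF hf
      have hcR : ((α.symm ⟨c, hc.1⟩ : S) : Ω) ∈ centralizerIn S e.range := by
        refine ⟨(α.symm _).2, Subgroup.mem_centralizer_iff.2 ?_⟩
        rintro _ ⟨z, rfl⟩
        have h1 : α ⟨e z, map_mem_S E₀ he z⟩ * ⟨c, hc.1⟩ =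
            ⟨c, hc.1⟩ * α ⟨e z, map_mem_S E₀ he z⟩ := by
          refine Subtype.ext ?_
          show _ * c = c * _
          rw [← autExt_of_mem, ← hfe]
          exact Subgroup.mem_centralizer_iff.1 hc.2 _ ⟨z, rfl⟩
        have h2 := congrArg (fun s => ((α.symm s : S) : Ω)) h1
        simpa using h2
      obtain ⟨z, hz⟩ := hP.2 e.range ⟨e, centricPElem_le_kernel hS hT χ hker' P he, rfl⟩ hcR
      refine ⟨z, ?_⟩
      rw [hfe, autExt_of_mem α (map_mem_S E₀ he z)]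
      have : (⟨e z, map_mem_S E₀ he z⟩ : S) = α.symm ⟨c, hc.1⟩ := Subtype.ext hz
      rw [this, MulEquiv.apply_symm_apply]
    have hnc : ¬ TCentric F T (P ⊓ T) := fun h => hPn ⟨hPc, h⟩
    obtain ⟨Q, hPQ, hw⟩ := exists_conj_witness hS hF hT hP.1 hnc
    obtain ⟨f, hf⟩ := (isConj_iff_exists_iso F).1 hPQ
    obtain ⟨γ, hγ, e, he, hfe⟩ := centricPElem_decomp hS hF hf
    have heK : e ∈ E₁.Hom P := centricPElem_le_kernel hS hT χ hker' P he
    set R := e.range
    refine ⟨R, ⟨e, heK, rfl⟩, not_autCore_le_inn hS hT (charKernelSystem_le χ hT)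
      (isCentric_of_isConj hPc ⟨e, heK.1, rfl⟩) ?_⟩
    obtain ⟨x, hx, hxQ, hxT, hxc⟩ := hw
    have hRS : R ≤ S := range_le_S E₀ he
    have hfwd : ∀ r (hr : r ∈ R), ((γ ⟨r, hRS hr⟩ : S) : Ω) ∈ Q := by
      rintro _ ⟨z, rfl⟩
      rw [← autExt_of_mem γ (map_mem_S E₀ he z), ← hfe z]
      exact (f z).2
    have hbwd : ∀ q : S, (q : Ω) ∈ Q → ((γ.symm q : S) : Ω) ∈ R := by
      intro q hq
      refine ⟨f.symm ⟨q, hq⟩, ?_⟩
      have h1 : autExt γ (e (f.symm ⟨q, hq⟩)) = q := by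
        refine (hfe _).symm.trans ?_
        show ((f (f.symm ⟨q, hq⟩) : Q) : Ω) = q
        rw [MulEquiv.apply_symm_apply]
      rw [autExt_of_mem γ (map_mem_S E₀ he _)] at h1
      have h2 : γ ⟨_, map_mem_S E₀ he (f.symm ⟨q, hq⟩)⟩ = q := Subtype.ext h1
      have h3 := congrArg (fun w => γ.symm w) h2
      simp only [MulEquiv.symm_apply_apply] at h3
      exact congrArg Subtype.val h3
    have hγT : ∀ y : S, (y : Ω) ∈ T → ((γ y : S) : Ω) ∈ T := fun y hy =>
      sc_map_mem hT (autGroup_mem_hom F le_rfl hγ) hy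
    have hγT' : ((γ.symm ⟨x, hx.1⟩ : S) : Ω) ∈ T :=
      sc_map_mem hT (autGroup_mem_hom F le_rfl (inv_mem hγ)) (x := (⟨x, hx.1⟩ : S)) hxT
    refine ⟨(γ.symm ⟨x, hx.1⟩ : S), ⟨(γ.symm _).2, ?_⟩, fun h => hxQ ?_, hγT', fun y hy => ?_⟩
    · have key : ∀ u : S, (u : Ω) ∈ Subgroup.normalizer (Q : Set Ω) →
          ∀ r ∈ R, ((γ.symm u : S) : Ω) * r * ((γ.symm u : S) : Ω)⁻¹ ∈ R := by
        intro u hu r hr
        have h1 := hbwd (u * γ ⟨r, hRS hr⟩ * u⁻¹)
          ((Subgroup.mem_normalizer_iff.1 hu _).1 (hfwd r hr))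
        simpa using h1
      refine Subgroup.mem_normalizer_iff.2 fun r => ⟨key _ hx.2 r, fun hr => ?_⟩
      have h1 := key (⟨x, hx.1⟩ : S)⁻¹ ((Subgroup.normalizer _).inv_mem hx.2) _ hr
      simpa [mul_assoc] using h1
    · have h1 := hfwd _ h
      rw [show (⟨((γ.symm ⟨x, hx.1⟩ : S) : Ω), hRS h⟩ : S) = γ.symm ⟨x, hx.1⟩ from rfl,
        MulEquiv.apply_symm_apply] at h1
      exact h1
    · have h1 := hxc _ ⟨hfwd y hy.1, hγT _ hy.2⟩
      have h2 : (⟨x, hx.1⟩ : S) * γ ⟨y, hRS hy.1⟩ = γ ⟨y, hRS hy.1⟩ * ⟨x, hx.1⟩ := Subtype.ext h1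
      have h3 := congrArg (fun w => ((γ.symm w : S) : Ω)) h2
      simpa using h3

/-- The subsystem cut out by a character of `Aut_F(T)` of order prime to `p` trivial on `Aut_E(T)`. -/
theorem charKernelSystem_spec (hS : IsPGroup p S) (hF : F.IsSaturated p)
    (hE : E.IsInvariantIn F) (hEs : E.IsSaturated p) {χ : F.autGroup T →* Δ}
    (hΔ : (Nat.card Δ).Coprime p) [Nontrivial Δ] (hχ : Function.Surjective χ)
    (hker : (E.autGroup T).subgroupOf (F.autGroup T) ≤ χ.ker) :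
    (charKernelSystem χ hE.2.1 p).IsNormalIn F p ∧
      ¬ (∀ P : Subgroup Ω, (charKernelSystem χ hE.2.1 p).Hom P = F.Hom P) ∧
      E.IsSubsystemOf (charKernelSystem χ hE.2.1 p) ∧
      (charKernelSystem χ hE.2.1 p).HasPrimeToPIndexIn F p := by
  have hT := hE.2.1
  have hTS := hT.1
  set E₀ := centricPElemSystem F p
  set F₀ := charKernelSystem χ hT p with hF₀
  have hinv : InvT F F₀ := by
    rintro β hβ P φ ⟨hφF, η, hη, φ₀, hφ₀, he⟩
    obtain ⟨c₀, hc₀, hc₀e⟩ := centricPElemSystem_invariant (p := p) F β hβ P φ₀ hφ₀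
    have hm : ∀ y, c₀ y ∈ S := map_mem_S E₀ hc₀
    have hη' := charKernelAut_conj χ hT hβ hη
    let c : autImage β P →* Ω :=
      (S.subtype.comp ((β * η * β⁻¹ : MulAut S)).toMonoidHom).comp (c₀.codRestrict S hm)
    refine ⟨c, ⟨comp_mem' F (centricPElemSystem_sub F _ hc₀)
      (autGroup_mem_hom F le_rfl (charKernelAut_le χ hT hη')) hm fun _ => rfl, β * η * β⁻¹, hη',
      c₀, hc₀, fun y => (autExt_of_mem _ (hm y)).symm⟩, fun x hx => ?_⟩
    have h1 : φ₀ x ∈ S := map_mem_S _ hφ₀ _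
    have h2 : autExt β (φ₀ x) ∈ S := by rw [autExt_of_mem β h1]; exact (β _).2
    refine (autExt_of_mem _ (hm _)).symm.trans ?_
    rw [hc₀e, he, autExt_mul _ _ h2, autExt_inv β h1, autExt_mul _ _ h1]
  have hindex : F₀.HasPrimeToPIndexIn F p :=
    ⟨fun _ _ h => h.1, fun P hP α hα => (mem_autGroup _ hP).2
      (centricPElem_le_kernel hS hT χ trivial P
        (autGroup_mem_hom _ hP (centricPElem_index hS hF hP hα)))⟩
  refine ⟨⟨⟨charKernelSystem_saturated hS hF hE hEs hΔ hker, hF, fun _ _ h => h.1, ?_,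
    fun P hP φ hφ α hα => ?_, fun P hP φ hφ => ?_⟩, fun α hα => ?_⟩, ?_, ?_, hindex⟩
  · exact ⟨le_rfl, fun R _ φ hφ x => map_mem_S F hφ x⟩
  · obtain ⟨c, hc, hce⟩ := hinv α hα P φ hφ
    refine ⟨c, hc, fun x hφx hαx => ?_⟩
    have e : (⟨_, hαx⟩ : autImage α P) = ⟨autExt α x, autExt_mem_autImage α hP x.2⟩ :=
      Subtype.ext (autExt_of_mem α (hP x.2)).symm
    rw [e, hce, autExt_of_mem α hφx]
  · obtain ⟨α, hα, e, he, hφe⟩ := centricPElem_decomp hS hF hφ
    exact ⟨α, hα, e, centricPElem_le_kernel hS hT χ trivial P he, fun x hx =>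
      (hφe x).trans (autExt_of_mem α hx)⟩
  · have hle : S ⊔ centralizerIn S S ≤ S := sup_le le_rfl (centralizerIn_le S)
    have heq : S ⊔ centralizerIn S S = S := le_antisymm hle le_sup_left
    have hαF : α ∈ F.autGroup S :=
      (mem_autGroup F le_rfl).2 (autGroup_mem_hom F₀ le_rfl hα).1
    have hres := restr_mem F hle (autGroup_mem_hom F le_rfl hαF)
    haveI : Finite ↥(S ⊔ centralizerIn S S) := finite_of_le ‹_› hle
    have hr : (restr hle (S.subtype.comp α.toMonoidHom)).range = S ⊔ centralizerIn S S :=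
      range_eq_of_image_le (F.injective_of_mem hres) ((range_le_S F hres).trans heq.ge) le_rfl
    refine ⟨_, toIso_mem_autGroup F hres hr, fun x => rfl, fun c hc => ?_⟩
    refine ⟨S.mul_mem (S.inv_mem hc.1) (α ⟨c, hle c.2⟩).2, ?_⟩
    refine (Subgroup.centralizer _).mul_mem ((Subgroup.centralizer _).inv_mem hc.2)
      (Subgroup.mem_centralizer_iff.2 fun s hs => ?_)
    obtain ⟨s', hs'⟩ := α.surjective ⟨s, hs⟩
    show s * ((α ⟨c, hle c.2⟩ : S) : Ω) = _ * s
    have h2 : α s' * α ⟨c, hle c.2⟩ = α ⟨c, hle c.2⟩ * α s' := by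
      rw [← map_mul, ← map_mul]
      exact congrArg α (Subtype.ext (Subgroup.mem_centralizer_iff.1 hc.2 s' s'.2))
    rw [show s = ((α s' : S) : Ω) from (congrArg Subtype.val hs').symm]
    exact congrArg Subtype.val h2
  · intro hall
    obtain ⟨d, hd⟩ := exists_ne (1 : Δ)
    obtain ⟨a, rfl⟩ := hχ d
    have hfn : F.IsFullyNormalized T :=
      Cfsg.Agent.FusionCrit.isFullyNormalized_of_normal F hTS (sc_le_normalizer hT)
    obtain ⟨h, k, N, N', e, hTN, hak, hk, he, -, hNn, hag, hext⟩ :=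
      Cfsg.Agent.FusionAux.exists_frattini_extend hS hF hfn χ.ker a
    have hSN : S ≤ N := fun g hg => by
      have hc : T.normalizerMonoidHom ⟨g, sc_le_normalizer hT hg⟩ ∈ autInducedBy S T :=
        mem_autInducedBy.2 ⟨g, hg, fun _ => rfl⟩
      refine hext g ⟨hg, sc_le_normalizer hT hg⟩
        ⟨⟨_, autInducedBy_le_autGroup F hTS hc⟩, MonoidHom.mem_ker.2 ?_, fun _ => rfl⟩
      obtain ⟨i, hi⟩ := isPGroup_autInducedBy hS T ⟨_, hc⟩
      exact char_eq_one_of_pow hΔ (k := i) (Subtype.ext (congrArg Subtype.val hi :))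
    have hres := restr_mem F hSN he
    have hr : (restr hSN (N'.subtype.comp e.toMonoidHom)).range = S :=
      range_eq_of_image_le (F.injective_of_mem hres) (range_le_S F hres) le_rfl
    set b : F.autGroup S := ⟨_, toIso_mem_autGroup F hres hr⟩
    have hb : (b : MulAut S) ∈ charKernelAut χ hT := by
      rw [← autGroup_charKernelSystem hS hE hEs hΔ hker, mem_autGroup_iff_hom _ le_rfl, hall]
      exact autGroup_mem_hom F le_rfl b.2
    rw [mem_charKernelAut b.2] at hb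
    refine hd ?_
    have hh : restrictT hT b = h := Subtype.ext (MulEquiv.ext fun x => Subtype.ext (hag x))
    rw [hak, map_mul, MonoidHom.mem_ker.1 hk, mul_one, ← hh]
    exact hb
  · haveI : Finite T := finite_of_le ‹_› hTS
    have hTp := hS.to_le hTS
    let D : FusionSystem T := subSystem E (fun P φ => φ ∈ F₀.Hom P)
      (fun hP hg => F₀.conj_mem (hP.trans hTS) (hTS hg))
      (fun _ _ a b h => F₀.comp_mem a b h)
      (fun {P φ} _ a ψ _ he => by
        obtain ⟨c, hc, hce⟩ := F₀.inv_mem a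
        refine mem_hom_congr F₀ hc fun y => ?_
        obtain ⟨x, hx⟩ := y.2
        have hy : y = ⟨φ x, x, rfl⟩ := Subtype.ext hx.symm
        rw [hy, he, hce])
    suffices h : E ≤ D from fun P φ hφ => (h P hφ).2
    refine alperin_le hTp hEs D fun Q hQ α hα => ?_
    have hQT : Q ≤ T := by
      rcases hQ with rfl | h
      · exact le_rfl
      · exact h.1.1
    have hQc : TCentric F T Q := by
      rcases hQ with rfl | h
      · exact tCentric_self hT
      · exact tCentric_of_centric hE h.1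
    have hφE := autGroup_mem_hom E hQT hα
    refine (mem_autGroup D hQT).2 ⟨hφE, ?_⟩
    have hφF := hE.1 Q hφE
    obtain ⟨γ, hγ, e₀, he₀, hfe⟩ := centricPElem_decomp hS hF hφF
    refine ⟨hφF, γ, ?_, e₀, he₀, hfe⟩
    rw [mem_charKernelAut hγ]
    have hD := (centricPElemSystem_le (pElem_le_charSystem hS hE hEs hΔ hker) Q he₀).2
      (by rwa [inf_eq_left.2 hQT])
    have hD' : CharVal χ E Q (fun x => e₀ x) 1 :=
      CharVal.restrict hD (le_inf le_rfl hQT) fun _ => rfl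
    have hm : ∀ x : Q, e₀ x ∈ T := fun x => sc_map_mem hT (centricPElemSystem_sub F Q he₀) (hQT x.2)
    have h1 := CharVal.comp (Cfsg.Agent.S5141.invT_of_invariant hE) hD'
      (CharVal.of_aut (χ := χ) (restrictT hT ⟨γ, hγ⟩) le_rfl) hm
    rw [mul_one] at h1
    refine charUnique hS hE hEs hΔ hker _ Q hQc rfl _ _ _ (CharVal.restrict h1 le_rfl fun x => ?_)
      (CharVal.of_mem hφE)
    exact (hfe x).trans (restrictT_apply hT ⟨γ, hγ⟩ (hm x)).symm

end Cfsg.Agent.FusionSys
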