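import Cfsg.Agent.FusionBiset.Transfer
import Cfsg.Agent.LocalP.Yoshida
import Cfsg.Agent.Tech.WreathQuotient
import Cfsg.Agent.FusionSys.Focal

/-!
Yoshida's transfer theorem for saturated fusion systems: if `N_F(S)` does not control transfer,
`C_p ≀ C_p` is a homomorphic image of `S`.
-/

set_option autoImplicit false
set_option linter.style.haveILetI false

open Cfsg Cfsg.FusionSystem Cfsg.Agent.FusionSys Subgroup MulAction Function

namespace Cfsg.Agent.FusionBiset

universe u

variable {Ω : Type u} [Group Ω] {S : Subgroup Ω} [Finite S] {F : FusionSystem S}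

/-- The transfer data of a saturated fusion system: a finite group realising the maps, and a
character of a subgroup of index prime to `p` whose values at fixed cosets are images under maps of
the system. -/
theorem exists_transfer_data {p : ℕ} [hp : Fact p.Prime] (hS : IsPGroup p S)
    (hF : F.IsSaturated p) :
    ∃ (G : Type u) (_ : Group G) (_ : Finite G) (j : S →* G) (H : Subgroup G)
      (θ : H →* Abelianization S), ¬ p ∣ H.index ∧
      (∀ (P : Subgroup Ω) (φ : P →* Ω) (h : φ ∈ F.Hom P), ∃ g : G, ∀ x : P,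
        j ⟨φ x, map_mem_S F h x⟩ = g * j ⟨x, le_S F h x.2⟩ * g⁻¹) ∧
      ∀ (R : Subgroup S) (k : G) (hk : ∀ s ∈ R, k⁻¹ * (j s * k) ∈ H),
        ∃ (ψ : R.map S.subtype →* Ω) (h : ψ ∈ F.Hom (R.map S.subtype)),
          ∀ (s : S) (hs : s ∈ R), θ ⟨_, hk s hs⟩ =
            Abelianization.of ⟨ψ ⟨s, Subgroup.mem_map_of_mem _ hs⟩, map_mem_S F h _⟩ := by
  classical
  obtain ⟨c, hc, hd, hst, hn⟩ := exists_characteristic hS hF
  haveI := rightOrbits_pretransitive hc
  set x₀ := basePt c hd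
  set H : Subgroup (parkGroup c) := MulAction.stabilizer (parkGroup c) (rmk c x₀) with hH
  have hidx : H.index = Nat.card (RightOrbits c) :=
    MulAction.index_stabilizer_of_transitive (parkGroup c) (rmk c x₀)
  have hHm : ∀ h : H, ∃ s : S, ((1 : S), s) • x₀ = ((h : parkGroup c) : Equiv.Perm (Space c)) x₀ :=
    fun h => (rmk_eq_iff c).1 (MulAction.mem_stabilizer_iff.1 h.2)
  let θ : H →* Abelianization S :=
    { toFun := fun h => (Abelianization.of (hHm h).choose)⁻¹
      map_one' := by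
        have := right_free hc (hHm 1).choose_spec
        rw [this, map_one, inv_one]
      map_mul' := fun a b => by
        have e : (hHm (a * b)).choose = (hHm b).choose * (hHm a).choose := by
          refine right_cancel hc (y := x₀) ((hHm (a * b)).choose_spec.trans ?_)
          show ((a : parkGroup c) : Equiv.Perm (Space c)) (((b : parkGroup c) : Equiv.Perm (Space c)) x₀) = _
          obtain ⟨sb, hsb⟩ : ∃ s : S, s = (hHm b).choose := ⟨_, rfl⟩
          obtain ⟨sa, hsa⟩ : ∃ s : S, s = (hHm a).choose := ⟨_, rfl⟩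
          have e1 := hsb ▸ (hHm b).choose_spec
          have e2 := hsa ▸ (hHm a).choose_spec
          rw [← hsa, ← hsb]
          refine (congrArg ((a : parkGroup c) : Equiv.Perm (Space c)) e1.symm).trans ?_
          rw [(a : parkGroup c).2, ← e2, smul_smul, Prod.mk_mul_mk, one_mul]
        rw [e, map_mul, mul_inv, mul_comm] }
  refine ⟨parkGroup c, inferInstance, inferInstance, parkHom c, H, θ, ?_, ?_, ?_⟩
  · intro h
    apply hn
    rw [card_rightOrbits hc, ← hidx]
    exact mul_dvd_mul_right h _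
  · exact fun P φ hφ => exists_park_conj hc hst hφ
  intro R k hk
  set y : Space c := (k : Equiv.Perm (Space c)) x₀ with hy
  have hmk : mark c (MulAction.stabilizer (S × S) y) ≠ 0 := by
    rw [← fixNum_space]
    haveI : Nonempty {a : Space c // MulAction.stabilizer (S × S) y ≤
        MulAction.stabilizer (S × S) a} := ⟨⟨y, le_rfl⟩⟩
    exact Nat.card_pos.ne'
  obtain ⟨P, ψ₀, hψ₀, he⟩ := isTw_of_mark_ne_zero hc hmk
  have key : ∀ (s : S) (hs : s ∈ R), ∃ x : P, ψ₀ x = s ∧
      (x : Ω) = (((hHm ⟨_, hk s hs⟩).choose)⁻¹ : S) := by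
    intro s hs
    obtain ⟨u, hu⟩ : ∃ u : S, u = (hHm ⟨_, hk s hs⟩).choose := ⟨_, rfl⟩
    have hu' : ((1 : S), u) • x₀ =
        ((k⁻¹ * (parkHom c s * k) : parkGroup c) : Equiv.Perm (Space c)) x₀ :=
      hu ▸ (hHm ⟨_, hk s hs⟩).choose_spec
    rw [← hu]
    have hy' : ((s, 1) : S × S) • y = ((1 : S), u) • y := by
      rw [hy, ← parkHom_apply, ← k.2 u x₀, hu', Subgroup.coe_mul, Subgroup.coe_mul,
        InvMemClass.coe_inv, Equiv.Perm.mul_apply, Equiv.Perm.mul_apply, Equiv.Perm.coe_inv,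
        Equiv.apply_symm_apply]
    have hstab : ((s, u⁻¹) : S × S) • y = y := by
      have := congrArg (fun w => ((1 : S), u⁻¹) • w) hy'
      simp only [smul_smul, Prod.mk_mul_mk, one_mul, mul_one, inv_mul_cancel, ← Prod.one_eq_mk,
        one_smul] at this
      exact this
    exact mem_twd.1 (he ▸ MulAction.mem_stabilizer_iff.2 hstab)
  obtain ⟨χ, hχ, hχe⟩ := F.inv_mem hψ₀
  have hle : R.map S.subtype ≤ ψ₀.range := by
    rintro _ ⟨s, hs, rfl⟩
    obtain ⟨x, hx, -⟩ := key s hs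
    exact ⟨x, hx⟩
  refine ⟨restr hle χ, restr_mem F hle hχ, fun s hs => ?_⟩
  obtain ⟨x, hx1, hx2⟩ := key s hs
  show (Abelianization.of (hHm ⟨_, hk s hs⟩).choose)⁻¹ = _
  rw [← map_inv]
  refine congrArg Abelianization.of (Subtype.ext ?_)
  rw [← hx2, ← hχe x]
  exact congrArg χ (Subtype.ext hx1)

end Cfsg.Agent.FusionBiset

namespace Cfsg.Agent.FusionSys

open Cfsg.Agent.LocalP

/-- A cocycle with a nontrivial product over a nontrivial orbit, trivial on smaller elements at
fixed points, gives a quotient `C_p ≀ C_p`. -/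
theorem wreath_of_orbit {p : ℕ} [Fact p.Prime] {S X : Type*} [Group S] [Finite S] [MulAction S X]
    (hS : IsPGroup p S) (c : S → X → Multiplicative (ZMod p))
    (hc : ∀ g h q, c (g * h) q = c g (h • q) * c h q) {x : S} {e : ℕ} (hx : orderOf x = p ^ e)
    (hmin : ∀ (u : S) (q : X), ∀ j < e, orderOf u = p ^ j → u • q = q → c u q = 1)
    {q : X} (hq : ∃ s : S, s • q ≠ q) {O : Finset X} (hO : ∀ b, b ∈ O ↔ ∃ r : S, r • q = b)
    (hne : ∏ b ∈ O, c x b ≠ 1) :
    ∃ (W : Sylow p (Equiv.Perm (Fin (p ^ 2))))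
      (f : S →* (W : Subgroup (Equiv.Perm (Fin (p ^ 2))))), Function.Surjective f := by
  classical
  have hc1 : ∀ b, c 1 b = 1 := fun b => by
    have h := hc 1 1 b
    rw [one_mul, one_smul] at h
    exact left_eq_mul.1 h
  have hcpow : ∀ (n : ℕ) (b : X), c (x ^ n) b = ∏ i ∈ Finset.range n, c x (x ^ i • b) := by
    intro n b
    induction n with
    | zero => rw [pow_zero, hc1, Finset.prod_range_zero]
    | succ n ih => rw [pow_succ', hc, ih, Finset.prod_range_succ, mul_comm]
  have hOinv : ∀ (r : S), ∀ b ∈ O, r • b ∈ O := fun r b hb => by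
    obtain ⟨t, rfl⟩ := (hO b).1 hb
    exact (hO _).2 ⟨r * t, mul_smul _ _ _⟩
  -- some point is fixed by `x`
  obtain ⟨q₁, hq₁O, hxq₁⟩ : ∃ b ∈ O, x • b = b := by
    by_contra hcon
    push Not at hcon
    refine hne ?_
    rw [Finset.prod_partition (MulAction.orbitRel (zpowers x) X) (s := O) (f := c x)]
    refine Finset.prod_eq_one fun a ha => ?_
    obtain ⟨b, hb, rfl⟩ := Finset.mem_image.1 ha
    set k := minimalPeriod (x • ·) b with hk
    have hper : IsPeriodicPt (x • ·) (orderOf x) b := by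
      show (x • ·)^[orderOf x] b = b
      rw [smul_iterate]
      simp only [pow_orderOf_eq_one, one_smul]
    have hkpos : 0 < k := hper.minimalPeriod_pos (orderOf_pos x)
    have hxk : x ^ k • b = b := by
      have := isPeriodicPt_minimalPeriod (x • ·) b
      rwa [IsPeriodicPt, IsFixedPt, smul_iterate] at this
    have hclass : O.filter (fun y => (Quotient.mk (MulAction.orbitRel (zpowers x) X) y) =
        Quotient.mk _ b) = (Finset.range k).image (fun i => x ^ i • b) := by
      ext y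
      rw [Finset.mem_filter, Quotient.eq, MulAction.orbitRel_apply, MulAction.mem_orbit_iff,
        Finset.mem_image]
      constructor
      · rintro ⟨-, ⟨r, hr⟩, rfl⟩
        obtain ⟨n, rfl⟩ := (isOfFinOrder_of_finite x).mem_powers_iff_mem_zpowers.2 hr
        refine ⟨n % k, Finset.mem_range.2 (Nat.mod_lt _ hkpos), ?_⟩
        have := iterate_mod_minimalPeriod_eq (f := (x • ·)) (x := b) (n := n)
        rwa [smul_iterate, smul_iterate] at this
      · rintro ⟨i, -, rfl⟩
        exact ⟨hOinv _ _ hb, ⟨x ^ i, pow_mem (mem_zpowers x) i⟩, rfl⟩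
    rw [hclass, Finset.prod_image fun i hi j hj hij =>
      iterate_injOn_Iio_minimalPeriod (f := (x • ·)) (x := b) (Finset.mem_range.1 hi)
        (Finset.mem_range.1 hj) (by simpa [smul_iterate] using hij), ← hcpow]
    obtain ⟨i, hi, hik⟩ := (Nat.dvd_prime_pow Fact.out).1 (hx ▸ hper.minimalPeriod_dvd)
    have hi0 : i ≠ 0 := fun h0 => hcon b hb (by
      have hk1 : k = 1 := by rw [hk, hik, h0, pow_zero]
      rwa [hk1, pow_one] at hxk)
    have hord : orderOf (x ^ k) = p ^ (e - i) := by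
      rw [orderOf_pow' x hkpos.ne', hx, hk, hik,
        Nat.gcd_eq_right (pow_dvd_pow p hi), Nat.pow_div hi (Fact.out : p.Prime).pos]
    exact hmin _ b _ (by omega) hord hxk
  have hO₁ : ∀ b, b ∈ O ↔ ∃ r : S, r • q₁ = b := by
    obtain ⟨r₁, hr₁⟩ := (hO q₁).1 hq₁O
    intro b
    rw [hO]
    constructor
    · rintro ⟨r, rfl⟩
      exact ⟨r * r₁⁻¹, by rw [← hr₁, ← mul_smul, inv_mul_cancel_right]⟩
    · rintro ⟨r, rfl⟩
      exact ⟨r * r₁, by rw [mul_smul, hr₁]⟩
  have hTne : MulAction.stabilizer S q₁ ≠ ⊤ := by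
    intro he
    obtain ⟨s, hs⟩ := hq
    obtain ⟨r, hr⟩ := (hO₁ q).1 ((hO q).2 ⟨1, one_smul _ _⟩)
    have hfix : ∀ t : S, t • q₁ = q₁ := fun t =>
      MulAction.mem_stabilizer_iff.1 (he ▸ Subgroup.mem_top t)
    refine hs ?_
    rw [← hr, ← mul_smul, hfix, hfix]
  obtain ⟨U', hU', hTU⟩ := (eq_top_or_exists_le_coatom _).resolve_left hTne
  haveI hUn : U'.Normal := PGroup.normal_of_isCoatom hS hU'
  have hUi : U'.index = p := PGroup.index_of_isCoatom hS hU'
  have hxU' : x ∈ U' := hTU hxq₁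
  obtain ⟨z', hz'⟩ : ∃ z, z ∉ U' := by
    by_contra hcon
    push Not at hcon
    exact hU'.1 (top_le_iff.1 fun r _ => hcon r)
  have hord : orderOf (QuotientGroup.mk' U' z') = p := by
    refine orderOf_eq_prime ?_ fun h1 => hz' ((QuotientGroup.eq_one_iff _).1 h1)
    rw [← hUi, Subgroup.index, pow_card_eq_one']
  have hgen : ∀ r : S, ∃ i < p, ∃ v ∈ U', r = z' ^ i * v := by
    intro r
    haveI : Fact (Nat.card (S ⧸ U')).Prime := ⟨by rw [← Subgroup.index, hUi]; exact Fact.out⟩
    have hne : QuotientGroup.mk' U' z' ≠ 1 := fun h1 => hz' ((QuotientGroup.eq_one_iff _).1 h1)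
    have hm : QuotientGroup.mk' U' r ∈ zpowers (QuotientGroup.mk' U' z') :=
      mem_zpowers_of_prime_card (p := Nat.card (S ⧸ U')) rfl hne
    rw [mem_zpowers_iff_mem_range_orderOf, Finset.mem_image] at hm
    obtain ⟨i, hi, he⟩ := hm
    refine ⟨i, ?_, (z' ^ i)⁻¹ * r, ?_, (mul_inv_cancel_left _ _).symm⟩
    · rw [hord] at hi
      exact Finset.mem_range.1 hi
    · rw [← QuotientGroup.eq_one_iff, ← QuotientGroup.mk'_apply, map_mul, map_inv, map_pow, he,
        inv_mul_cancel]
  set B : Finset X := O.filter (fun b => ∃ v ∈ U', v • q₁ = b) with hB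
  have hBmem : ∀ b, b ∈ B ↔ ∃ v ∈ U', v • q₁ = b := fun b => by
    rw [hB, Finset.mem_filter]
    exact ⟨fun h => h.2, fun h => ⟨(hO₁ b).2 (by obtain ⟨v, -, hv⟩ := h; exact ⟨v, hv⟩), h⟩⟩
  have hBinv : ∀ v ∈ U', ∀ b ∈ B, v • b ∈ B := by
    intro v hv b hb
    obtain ⟨v', hv', rfl⟩ := (hBmem b).1 hb
    exact (hBmem _).2 ⟨v * v', mul_mem hv hv', mul_smul _ _ _⟩
  set F : S → Multiplicative (ZMod p) := fun g => ∏ b ∈ B, c g b with hFdef
  have hperm : ∀ v ∈ U', ∀ f : X → Multiplicative (ZMod p),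
      ∏ b ∈ B, f (v • b) = ∏ b ∈ B, f b := by
    intro v hv f
    exact Finset.prod_equiv (MulAction.toPerm v) (fun b => ⟨hBinv v hv b, fun hb => by
      simpa using hBinv v⁻¹ (inv_mem hv) _ hb⟩) fun b _ => rfl
  have hmul : ∀ v ∈ U', ∀ w ∈ U', F (v * w) = F v * F w := by
    intro v _ w hw
    simp only [hFdef, hc, Finset.prod_mul_distrib]
    rw [hperm w hw (c v)]
  have hnorm : ∏ i ∈ Finset.range p, F ((z' ^ i)⁻¹ * x * z' ^ i) ≠ 1 := by
    have hterm : ∀ i : ℕ, F ((z' ^ i)⁻¹ * x * z' ^ i) = ∏ b ∈ B, c x (z' ^ i • b) := by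
      intro i
      have hv : (z' ^ i)⁻¹ * x * z' ^ i ∈ U' := by
        simpa using hUn.conj_mem x hxU' (z' ^ i)⁻¹
      have hsplit : ∀ b, c ((z' ^ i)⁻¹ * x * z' ^ i) b =
          c (z' ^ i)⁻¹ (z' ^ i • ((z' ^ i)⁻¹ * x * z' ^ i) • b) * c x (z' ^ i • b) *
            c (z' ^ i) b := by
        intro b
        rw [hc, hc, ← mul_smul (z' ^ i) ((z' ^ i)⁻¹ * x * z' ^ i), ← mul_smul x,
          show z' ^ i * ((z' ^ i)⁻¹ * x * z' ^ i) = x * z' ^ i by group]
      simp only [hFdef, hsplit, Finset.prod_mul_distrib]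
      rw [hperm _ hv (fun b => c (z' ^ i)⁻¹ (z' ^ i • b)), mul_right_comm,
        ← Finset.prod_mul_distrib, Finset.prod_eq_one fun b _ => ?_, one_mul]
      rw [← hc, inv_mul_cancel, hc1]
    have hdisj : Set.InjOn (fun ib : ℕ × X => z' ^ ib.1 • ib.2) ↑(Finset.range p ×ˢ B) := by
      rintro ⟨i, b⟩ hib ⟨j, b'⟩ hjc he
      simp only [Finset.coe_product, Set.mem_prod, Finset.coe_range, Set.mem_Iio,
        Finset.mem_coe] at hib hjc
      simp only at he
      obtain ⟨hi, hb⟩ := hib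
      obtain ⟨hj, hb'⟩ := hjc
      obtain ⟨v, hv, rfl⟩ := (hBmem b).1 hb
      obtain ⟨w, hw, rfl⟩ := (hBmem b').1 hb'
      have hmem : (z' ^ j * w)⁻¹ * (z' ^ i * v) ∈ MulAction.stabilizer S q₁ := by
        rw [MulAction.mem_stabilizer_iff, mul_smul, mul_smul (z' ^ i), he, ← mul_smul (z' ^ j)]
        exact inv_smul_smul _ _
      have h2 : QuotientGroup.mk' U' z' ^ i = QuotientGroup.mk' U' z' ^ j := by
        have := (QuotientGroup.eq_one_iff _).2 (hTU hmem)
        rw [← QuotientGroup.mk'_apply, map_mul, map_inv, map_mul, map_mul, map_pow, map_pow,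
          show QuotientGroup.mk' U' v = 1 from (QuotientGroup.eq_one_iff _).2 hv,
          show QuotientGroup.mk' U' w = 1 from (QuotientGroup.eq_one_iff _).2 hw, mul_one, mul_one,
          inv_mul_eq_one] at this
        exact this.symm
      have hij : i = j :=
        pow_injOn_Iio_orderOf (by rw [hord]; exact hi) (by rw [hord]; exact hj) h2
      subst hij
      rw [smul_left_cancel_iff] at he
      rw [Prod.mk.injEq]
      exact ⟨rfl, he⟩
    have hOimg : O = (Finset.range p ×ˢ B).image (fun ib : ℕ × X => z' ^ ib.1 • ib.2) := by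
      ext b
      rw [hO₁, Finset.mem_image]
      constructor
      · rintro ⟨r, rfl⟩
        obtain ⟨i, hi, v, hv, rfl⟩ := hgen r
        exact ⟨(i, v • q₁), Finset.mem_product.2 ⟨Finset.mem_range.2 hi,
          (hBmem _).2 ⟨v, hv, rfl⟩⟩, (mul_smul _ _ _).symm⟩
      · rintro ⟨⟨i, b'⟩, hib, rfl⟩
        obtain ⟨v, hv, rfl⟩ := (hBmem b').1 (Finset.mem_product.1 hib).2
        exact ⟨z' ^ i * v, mul_smul _ _ _⟩
    rw [hOimg, Finset.prod_image hdisj, Finset.prod_product] at hne
    simpa only [hterm] using hne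
  have hF1 : F 1 = 1 := by
    have h2 := hmul 1 U'.one_mem 1 U'.one_mem
    rw [one_mul] at h2
    exact left_eq_mul.1 h2
  set x' := x with hx'
  have hne := hnorm
  let F₀ : ↥U' →* Multiplicative (ZMod p) :=
    { toFun := fun v => F (v : S)
      map_one' := hF1
      map_mul' := fun u v => hmul _ u.2 _ v.2 }
  set K := F₀.ker.map U'.subtype with hK
  have hKU : K ≤ U' := Subgroup.map_subtype_le _
  set D := K.normalCore with hD
  have hDU : D ≤ U' := K.normalCore_le.trans hKU
  set f := QuotientGroup.mk' D with hf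
  haveI : (U'.map f).Normal := hUn.map f (QuotientGroup.mk'_surjective D)
  have hP : IsPGroup p (S ⧸ D) := hS.to_quotient D
  have hexp : ∀ a : Multiplicative (ZMod p), a ^ p = 1 := fun a => by
    apply Multiplicative.toAdd.injective
    simp
  have hconj : ∀ (g : S) {u}, u ∈ U' → g * u * g⁻¹ ∈ U' := fun g u hu =>
    hUn.conj_mem u hu g
  have hA : Cfsg.IsElementaryAbelian p (U'.map f) := by
    refine ⟨⟨⟨?_⟩⟩, ?_⟩
    · rintro ⟨_, u, hu, rfl⟩ ⟨_, v, hv, rfl⟩
      refine Subtype.ext ?_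
      show f u * f v = f v * f u
      rw [← map_mul, ← map_mul]
      refine (QuotientGroup.eq).2 fun g => ?_
      change g * _ * g⁻¹ ∈ K
      refine ⟨⟨g * ((u * v)⁻¹ * (v * u)) * g⁻¹,
        hconj g (mul_mem (inv_mem (mul_mem hu hv)) (mul_mem hv hu))⟩, ?_, rfl⟩
      have e : (⟨g * ((u * v)⁻¹ * (v * u)) * g⁻¹,
            hconj g (mul_mem (inv_mem (mul_mem hu hv)) (mul_mem hv hu))⟩ : ↥U') =
          ((⟨g * u * g⁻¹, hconj g hu⟩ : ↥U') * ⟨g * v * g⁻¹, hconj g hv⟩)⁻¹ *
            ((⟨g * v * g⁻¹, hconj g hv⟩ : ↥U') * ⟨g * u * g⁻¹, hconj g hu⟩) := by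
        refine Subtype.ext ?_
        simp only [Subgroup.coe_mul, InvMemClass.coe_inv]
        group
      show F₀ _ = 1
      rw [e]
      rw [map_mul, map_inv, map_mul, map_mul, mul_comm (F₀ ⟨g * u * g⁻¹, hconj g hu⟩), inv_mul_cancel]
    · rintro _ ⟨u, hu, rfl⟩
      rw [← map_pow]
      refine (QuotientGroup.eq_one_iff _).2 fun g => ?_
      refine ⟨⟨g * u ^ p * g⁻¹, hconj g (pow_mem hu p)⟩, ?_, rfl⟩
      have e : (⟨g * u ^ p * g⁻¹, hconj g (pow_mem hu p)⟩ : ↥U') =
          (⟨g * u * g⁻¹, hconj g hu⟩ : ↥U') ^ p := by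
        refine Subtype.ext ?_
        simp only [SubmonoidClass.coe_pow, conj_pow]
      show F₀ _ = 1
      rw [e, map_pow, hexp]
  have hidx' : (U'.map f).index = p := by
    rw [Subgroup.index_map, QuotientGroup.ker_mk', sup_eq_left.2 hDU,
      MonoidHom.range_eq_top.2 (QuotientGroup.mk'_surjective D), Subgroup.index_top, mul_one, hUi]
  have hterm : ∀ i : ℕ, (z' ^ i)⁻¹ * x' * z' ^ i ∈ U' := fun i => by
    simpa using hconj (z' ^ i)⁻¹ hxU'
  have hprod : ((List.range p).map
      (fun i => ((f z') ^ i)⁻¹ * f x' * (f z') ^ i)).prod ≠ 1 := by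
    intro h1
    apply hne
    set l : List ↥U' := (List.range p).map (fun i => ⟨_, hterm i⟩) with hl
    have h2 : (l.prod : S) ∈ D := by
      rw [← QuotientGroup.eq_one_iff, ← h1, ← QuotientGroup.mk'_apply, SubmonoidClass.coe_list_prod,
        hl, List.map_map, map_list_prod, List.map_map]
      simp [Function.comp_def, hf]
    obtain ⟨w, hw, hwe⟩ := K.normalCore_le h2
    have h3 : F₀ l.prod = 1 := by
      rw [show l.prod = w from Subtype.ext hwe.symm]; exact hw
    rw [map_list_prod, hl, List.map_map] at h3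
    rw [← h3, Finset.prod, Finset.range_val, Multiset.range, Multiset.map_coe, Multiset.prod_coe]
    rfl
  obtain ⟨Q, g, hg⟩ := Tech.wreath_quotient hP (U'.map f) hA hidx' (f x') (f z')
    (Subgroup.mem_map_of_mem f hxU') hprod
  exact ⟨Q, g.comp f, hg.comp (QuotientGroup.mk'_surjective D)⟩

/-- Yoshida's theorem for saturated fusion systems. -/
theorem yoshida {Ω : Type*} [Group Ω] {S : Subgroup Ω} [Finite S] {p : ℕ} [Fact p.Prime]
    (hS : IsPGroup p S) {F : FusionSystem S} (hF : F.IsSaturated p) {K : Subgroup Ω}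
    (hKS : K ≤ S) (hcK : ⁅S, S⁆ ≤ K) (hKF : K < F.focalSubgroup)
    (hK : ∀ α ∈ F.autGroup S, ∀ x : S, (x : Ω)⁻¹ * (α x : Ω) ∈ K) :
    ∃ (W : Sylow p (Equiv.Perm (Fin (p ^ 2))))
      (f : S →* (W : Subgroup (Equiv.Perm (Fin (p ^ 2))))), Function.Surjective f := by
  classical
  obtain ⟨G, _, _, j, H, θ, hidx, hconj, hfix⟩ := FusionBiset.exists_transfer_data hS hF
  set B₁ := (K.subgroupOf S).map (Abelianization.of : S →* Abelianization S)
  set η : S →* Abelianization S ⧸ B₁ := (QuotientGroup.mk' B₁).comp Abelianization.of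
  have hη : η.ker = K.subgroupOf S := by
    ext s
    show (QuotientGroup.mk' B₁ (Abelianization.of s) = 1) ↔ _
    rw [QuotientGroup.mk'_apply, QuotientGroup.eq_one_iff]
    refine ⟨?_, fun h => mem_map_of_mem _ h⟩
    rintro ⟨t, ht, hts⟩
    have h1 : t⁻¹ * s ∈ commutator S := by
      rw [← Abelianization.ker_of, MonoidHom.mem_ker, map_mul, map_inv, hts, inv_mul_cancel]
    have h2 : ((t⁻¹ * s : S) : Ω) ∈ K := by
      refine hcK ?_
      rw [← Subgroup.map_subtype_commutator]
      exact mem_map_of_mem _ h1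
    have := K.mul_mem (mem_subgroupOf.1 ht) h2
    simpa [mem_subgroupOf] using this
  set T : S →* Abelianization S ⧸ B₁ :=
    (QuotientGroup.mk' B₁).comp ((MonoidHom.transfer θ).comp j)
  have hTfoc : F.focalSubgroup ≤ T.ker.map S.subtype := by
    refine (closure_le _).2 ?_
    rintro _ ⟨P, φ, y, hφ, rfl⟩
    refine ⟨(⟨y, le_S F hφ y.2⟩ : S)⁻¹ * ⟨φ y, map_mem_S F hφ y⟩, ?_, rfl⟩
    obtain ⟨g, hg⟩ := hconj P φ hφ
    rw [SetLike.mem_coe, MonoidHom.mem_ker, map_mul, map_inv, inv_mul_eq_one]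
    show QuotientGroup.mk' B₁ (MonoidHom.transfer θ (j _)) =
      QuotientGroup.mk' B₁ (MonoidHom.transfer θ (j _))
    rw [hg y]
    simp only [map_mul, map_inv]
    exact (mul_inv_cancel_comm _ _).symm
  have hTne : T.range ≠ ⊤ := by
    intro htop
    haveI : Finite F.focalSubgroup := finite_of_le ‹_› (hTfoc.trans (map_subtype_le _))
    have h1 : Nat.card F.focalSubgroup ≤ Nat.card (T.ker.map S.subtype) := by
      haveI := finite_of_le ‹Finite S› (map_subtype_le T.ker)
      exact card_le_of_le hTfoc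
    rw [card_map_of_injective S.subtype_injective] at h1
    have h2 : Nat.card K < Nat.card F.focalSubgroup :=
      (card_le_of_le hKF.le).lt_of_ne fun h => hKF.ne (eq_of_le_of_card_ge hKF.le h.ge)
    have h3 : Nat.card η.ker = Nat.card K := by
      rw [hη]; exact Nat.card_congr (subgroupOfEquivOfLe hKS).toEquiv
    have hηr : η.range = ⊤ := MonoidHom.range_eq_top.2
      ((QuotientGroup.mk'_surjective B₁).comp QuotientGroup.mk_surjective)
    have h4 := T.ker.card_mul_index
    have h5 := η.ker.card_mul_index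
    rw [index_ker, htop, card_top] at h4
    rw [index_ker, hηr, card_top] at h5
    have := Nat.eq_of_mul_eq_mul_right Nat.card_pos (h4.trans h5.symm)
    omega
  have hCp : IsPGroup p (Abelianization S ⧸ B₁) := hS.of_surjective η
    ((QuotientGroup.mk'_surjective B₁).comp QuotientGroup.mk_surjective)
  obtain ⟨M, hM, hTM⟩ := (eq_top_or_exists_le_coatom T.range).resolve_left hTne
  haveI := PGroup.normal_of_isCoatom hCp hM
  have hcard : Nat.card ((Abelianization S ⧸ B₁) ⧸ M) = p := PGroup.index_of_isCoatom hCp hM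
  set e₀ := mulEquivOfPrimeCardEq hcard
    (show Nat.card (Multiplicative (ZMod p)) = p by simp)
  set φ' : Abelianization S →* Multiplicative (ZMod p) :=
    (e₀.toMonoidHom.comp (QuotientGroup.mk' M)).comp (QuotientGroup.mk' B₁) with hφ'
  set φ : S →* Multiplicative (ZMod p) := φ'.comp Abelianization.of with hφ
  have hM1 : ∀ a ∈ M, (e₀.toMonoidHom.comp (QuotientGroup.mk' M)) a = 1 := fun a ha => by
    simp [(QuotientGroup.eq_one_iff a).2 ha]
  have hφK : ∀ s : S, (s : Ω) ∈ K → φ s = 1 := fun s hs => by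
    have h : η s = 1 := MonoidHom.mem_ker.1 (hη.ge hs)
    show (e₀.toMonoidHom.comp (QuotientGroup.mk' M)) (η s) = 1
    rw [h, map_one]
  have hφne : ∃ s, φ s ≠ 1 := by
    by_contra hcon
    push Not at hcon
    refine hM.1 (top_le_iff.1 fun a _ => ?_)
    obtain ⟨s, rfl⟩ : ∃ s, η s = a :=
      ((QuotientGroup.mk'_surjective B₁).comp QuotientGroup.mk_surjective) a
    have h := hcon s
    change e₀ (QuotientGroup.mk' M (η s)) = 1 at h
    exact (QuotientGroup.eq_one_iff _).1 (e₀.map_eq_one_iff.1 h)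
  -- an element of least order outside the kernel
  have hex : ∃ e, ∃ u : S, orderOf u = p ^ e ∧ φ u ≠ 1 := by
    obtain ⟨s, hs⟩ := hφne
    obtain ⟨n, hn⟩ := IsPGroup.iff_orderOf.1 hS s
    exact ⟨n, s, hn, hs⟩
  obtain ⟨x, hxo, hxφ⟩ := Nat.find_spec hex
  set e := Nat.find hex
  letI : MulAction S (G ⧸ H) := MulAction.compHom (G ⧸ H) j
  haveI := Fintype.ofFinite (G ⧸ H)
  set c : S → G ⧸ H → Multiplicative (ZMod p) :=
    fun s q => Yoshida.cval (φ'.comp θ) (j s) q with hcdef
  have hc : ∀ g h q, c (g * h) q = c g (h • q) * c h q := fun g h q => by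
    simp only [hcdef, map_mul]
    exact Yoshida.cval_mul _ _ _ _
  -- values at fixed points
  have hval : ∀ (R : Subgroup S) (q : G ⧸ H), (∀ s ∈ R, s • q = q) →
      ∃ (ψ : R.map S.subtype →* Ω) (h : ψ ∈ F.Hom (R.map S.subtype)), ∀ (s : S) (hs : s ∈ R),
        c s q = φ ⟨ψ ⟨s, mem_map_of_mem _ hs⟩, map_mem_S F h _⟩ := by
    intro R q hR
    have hk : ∀ s ∈ R, q.out⁻¹ * (j s * q.out) ∈ H := fun s hs => QuotientGroup.eq.1 (by
      rw [QuotientGroup.out_eq', ← smul_eq_mul, Quotient.coe_smul_out]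
      exact (hR s hs).symm)
    obtain ⟨ψ, hψ, hψe⟩ := hfix R q.out hk
    exact ⟨ψ, hψ, fun s hs =>
      (Yoshida.cval_of_fixed (φ'.comp θ) (hR s hs) (hk s hs)).trans (congrArg φ' (hψe s hs))⟩
  have hmin : ∀ (u : S) (q : G ⧸ H), ∀ i < e, orderOf u = p ^ i → u • q = q → c u q = 1 := by
    intro u q i hi ho hu
    obtain ⟨ψ, hψ, hψe⟩ := hval (zpowers u) q fun s hs => by
      exact zpowers_le.2 (show u ∈ MulAction.stabilizer S q from hu) hs
    rw [hψe u (mem_zpowers u)]
    by_contra hne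
    refine Nat.find_min hex hi ⟨_, ?_, hne⟩
    rw [← ho, ← Subgroup.orderOf_coe, ← Subgroup.orderOf_coe u]
    refine (orderOf_injective ψ (F.injective_of_mem hψ) _).trans ?_
    rw [← Subgroup.orderOf_coe]
  have hbase : ∀ q ∈ MulAction.fixedPoints S (G ⧸ H), c x q = φ x := by
    intro q hq
    obtain ⟨ψ, hψ, hψe⟩ := hval ⊤ q fun s _ => hq s
    have htop : (⊤ : Subgroup S).map S.subtype = S := by
      rw [← MonoidHom.range_eq_map, range_subtype]
    have hres := restr_mem F htop.ge hψ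
    have hr : (restr htop.ge ψ).range = S :=
      range_eq_of_image_le (F.injective_of_mem hres) (range_le_S F hres) le_rfl
    have h := hK _ (toIso_mem_autGroup F hres hr) x
    rw [hψe x (mem_top x)]
    have h1 : φ (x⁻¹ * toIso F hres hr x) = 1 := hφK _ h
    rw [map_mul, map_inv, inv_mul_eq_one] at h1
    rw [h1]
    exact congrArg φ (Subtype.ext rfl)
  have htot : ∏ q : G ⧸ H, c x q = 1 := by
    have h1 : φ' (MonoidHom.transfer θ (j x)) = ∏ q : G ⧸ H, c x q := by
      rw [Yoshida.transfer_eq_prod, map_prod]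
      rfl
    rw [← h1]
    exact hM1 _ (hTM ⟨x, rfl⟩)
  set Fx := Finset.univ.filter (fun q : G ⧸ H => ∀ s : S, s • q = q) with hFx
  obtain ⟨q, hq, O, hO, hOne⟩ : ∃ q : G ⧸ H, (∃ s : S, s • q ≠ q) ∧ ∃ O : Finset (G ⧸ H),
      (∀ b, b ∈ O ↔ ∃ r : S, r • q = b) ∧ ∏ b ∈ O, c x b ≠ 1 := by
    by_contra hcon
    push Not at hcon
    refine hxφ ?_
    have hrest : ∏ q ∈ Finset.univ.filter (fun q : G ⧸ H => ¬ ∀ s : S, s • q = q), c x q = 1 := by
      rw [Finset.prod_partition (MulAction.orbitRel S (G ⧸ H))]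
      refine Finset.prod_eq_one fun a ha => ?_
      obtain ⟨q, hq, rfl⟩ := Finset.mem_image.1 ha
      have hq' : ∃ s : S, s • q ≠ q := not_forall.1 (Finset.mem_filter.1 hq).2
      refine hcon q hq' _ fun b => ?_
      rw [Finset.mem_filter, Quotient.eq, MulAction.orbitRel_apply, MulAction.mem_orbit_iff]
      refine ⟨fun h => h.2, fun h => ⟨Finset.mem_filter.2 ⟨Finset.mem_univ _, fun hb => ?_⟩, h⟩⟩
      obtain ⟨s, hs⟩ := hq'
      obtain ⟨r, rfl⟩ := h
      refine hs ?_
      have h1 := hb r⁻¹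
      rw [inv_smul_smul] at h1
      rw [← h1] at hb
      exact hb s
    have h2 := Finset.prod_filter_mul_prod_filter_not Finset.univ
      (fun q : G ⧸ H => ∀ s : S, s • q = q) (c x)
    rw [hrest, mul_one, htot] at h2
    rw [Finset.prod_congr (s₁ := Fx) rfl fun q hq => hbase q (Finset.mem_filter.1 hq).2,
      Finset.prod_const] at h2
    have hmod := hS.card_modEq_card_fixedPoints (G ⧸ H)
    have hf : Fx.card = Nat.card (MulAction.fixedPoints S (G ⧸ H)) := by
      rw [Nat.card_eq_fintype_card, ← Set.toFinset_card]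
      congr 1
      ext q
      simp [hFx, MulAction.mem_fixedPoints]
    have hnd : ¬ p ∣ Fx.card := fun h => hidx (by
      rw [Subgroup.index]
      exact (Nat.ModEq.dvd_iff hmod dvd_rfl).2 (hf ▸ h))
    have h3 : orderOf (φ x) ∣ Fx.card := orderOf_dvd_of_pow_eq_one h2
    have h4 : orderOf (φ x) ∣ p := orderOf_dvd_of_pow_eq_one (by
      apply Multiplicative.toAdd.injective
      simp)
    rcases (Nat.dvd_prime (Fact.out : p.Prime)).1 h4 with h | h
    · exact orderOf_eq_one_iff.1 h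
    · exact absurd (h ▸ h3) hnd
  exact wreath_of_orbit hS c hc hxo hmin hq hO hOne

end Cfsg.Agent.FusionSys
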