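import Cfsg.Agent.FusionSys.Centric
import Cfsg.Agent.FusionSys.Realized
import Cfsg.Agent.Cores.Basic
import Cfsg.Prelude.Def_CaseTheorems
import Mathlib.GroupTheory.SchurZassenhaus

/-!
The centre of the 2-fusion system of a finite group, from the Z*-theorem.
-/

set_option autoImplicit false

open Cfsg Cfsg.FusionSystem Cfsg.Agent.FusionSys
open scoped commutatorElement

namespace Cfsg.Agent.FusionSys

universe u

/-- The statement of the Z*-theorem in universe `u`. -/
def ZStarHyp : Prop :=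
  ∀ {G : Type u} [Group G] [Finite G] (P : Sylow 2 G) (z : G), orderOf z = 2 → z ∈ P →
    (∀ g : G, g * z * g⁻¹ ∈ P → g * z * g⁻¹ = z) →
      ∃ N : Subgroup G, N.Normal ∧ Odd (Nat.card N) ∧ ∀ g : G, (z * g * z⁻¹ * g⁻¹) ∈ N

/-- Every element of odd order of a central extension of a group of odd order by a group of order
`2` lies in the complement; so if the big group has no odd normal subgroup, the extension is
trivial. -/
theorem le_of_central_extension {G : Type u} [Group G] [Finite G] (hO : oddCore G = ⊥)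
    {Z K : Subgroup G} (hZ : Z ≤ Subgroup.center G) (hZ2 : Nat.card Z = 2) [K.Normal] (hZK : Z ≤ K)
    (hK : Odd (Z.relIndex K)) : K ≤ Z := by
  let Z' := Z.subgroupOf K
  have hZn : Z'.Normal := ⟨fun a ha k => by
    rw [Subgroup.mem_subgroupOf] at ha ⊢
    rw [Subgroup.coe_mul, Subgroup.coe_mul, Subgroup.coe_inv,
      Subgroup.mem_center_iff.1 (hZ ha) k, mul_inv_cancel_right]
    exact ha⟩
  have hcard : Nat.card Z' = 2 := by
    rw [Nat.card_congr (Subgroup.subgroupOfEquivOfLe hZK).toEquiv, hZ2]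
  have hidx : Z'.index = Z.relIndex K := rfl
  obtain ⟨C, hC⟩ := Subgroup.exists_left_complement'_of_coprime (N := Z') (by
    rw [hcard, hidx]
    exact Nat.coprime_two_left.2 hK)
  have hCodd : Odd (Nat.card C) := by
    rwa [← hC.index_eq_card]
  let D : Subgroup G := Subgroup.closure {k | k ∈ K ∧ Odd (orderOf k)}
  have hDn : D.Normal := by
    refine ⟨fun d hd g => ?_⟩
    induction hd using Subgroup.closure_induction with
    | mem k hk =>
      refine Subgroup.subset_closure ⟨Subgroup.Normal.conj_mem inferInstance k hk.1 g, ?_⟩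
      rw [show g * k * g⁻¹ = MulAut.conj g k from rfl, MulEquiv.orderOf_eq]
      exact hk.2
    | one => simp
    | mul a b _ _ ha hb => simpa [mul_assoc] using D.mul_mem ha hb
    | inv a _ ha => simpa [mul_assoc] using D.inv_mem ha
  have hDC : D ≤ C.map K.subtype := by
    rw [Subgroup.closure_le]
    rintro k ⟨hk, hodd⟩
    obtain ⟨⟨c, z⟩, hcz, -⟩ := hC.existsUnique (⟨k, hk⟩ : K)
    have hcz' : ((c : K) : G) * ((z : K) : G) = k := congrArg Subtype.val hcz
    have hzZ : ((z : K) : G) ∈ Z := z.2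
    have hz2 : ((z : K) : G) ^ 2 = 1 := by
      have := pow_card_eq_one' (x := (⟨_, hzZ⟩ : Z))
      rw [hZ2] at this
      exact congrArg Subtype.val this
    have hcomm : Commute ((c : K) : G) ((z : K) : G) := Subgroup.mem_center_iff.1 (hZ hzZ) _
    have hk2 : k ^ 2 ∈ C.map K.subtype := by
      rw [← hcz', hcomm.mul_pow, hz2, mul_one]
      exact pow_mem (Subgroup.mem_map_of_mem K.subtype c.2) 2
    obtain ⟨j, hj⟩ := hodd
    have hk1 : k = (k ^ 2) ^ (j + 1) := by
      rw [← pow_mul, show 2 * (j + 1) = orderOf k + 1 by omega, pow_succ, pow_orderOf_eq_one,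
        one_mul]
    rw [SetLike.mem_coe, hk1]
    exact pow_mem hk2 _
  have hDodd : Odd (Nat.card D) := by
    refine hCodd.of_dvd_nat ?_
    rw [← Subgroup.card_map_of_injective (f := K.subtype) (K := C) K.subtype_injective]
    exact Subgroup.card_dvd_of_le hDC
  have hD : D = ⊥ := le_bot_iff.1 (hO ▸ Cores.le_pPrimeCore hDn (Nat.coprime_two_right.2 hDodd))
  intro k hk
  obtain ⟨⟨c, z⟩, hcz, -⟩ := hC.existsUnique (⟨k, hk⟩ : K)
  have hc : ((c : K) : G) = 1 := by
    have : ((c : K) : G) ∈ D := Subgroup.subset_closure ⟨(c : K).2, by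
      rw [Subgroup.orderOf_coe, Subgroup.orderOf_coe]
      exact hCodd.of_dvd_nat (orderOf_dvd_natCard c)⟩
    rwa [hD, Subgroup.mem_bot] at this
  have hcz' : ((c : K) : G) * ((z : K) : G) = k := congrArg Subtype.val hcz
  rw [← hcz', hc, one_mul]
  exact z.2

/-- Elements all whose powers are isolated in a Sylow 2-subgroup are central modulo the odd core. -/
theorem commutator_mem_oddCore_of_isolated (hz : ZStarHyp.{u}) {G : Type u} [Group G] [Finite G]
    (P : Sylow 2 G) {x : G} (hx : x ∈ P)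
    (hiso : ∀ y ∈ Subgroup.zpowers x, ∀ g : G, g * y * g⁻¹ ∈ P → g * y * g⁻¹ = y) (g : G) :
    ⁅x, g⁆ ∈ oddCore G := by
  suffices ∀ n, ∀ (G : Type u) [Group G] [Finite G], Nat.card G = n → ∀ (P : Sylow 2 G) (x : G),
      x ∈ P → (∀ y ∈ Subgroup.zpowers x, ∀ g : G, g * y * g⁻¹ ∈ P → g * y * g⁻¹ = y) →
      ∀ g, ⁅x, g⁆ ∈ oddCore G from this _ G rfl P x hx hiso g
  intro n
  induction n using Nat.strong_induction_on with
  | _ n ih =>
  intro G _ _ hn P x hx hiso g
  subst hn
  haveI : Fact (Nat.Prime 2) := ⟨Nat.prime_two⟩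
  by_cases hO : oddCore G = ⊥
  swap
  · set O := oddCore G with hOdef
    haveI hOn : O.Normal := by rw [hOdef]; infer_instance
    have hlt : Nat.card (G ⧸ O) < Nat.card G := by
      rw [← Subgroup.index_eq_card, ← Subgroup.index_mul_card O]
      exact lt_mul_of_one_lt_right (Nat.pos_of_ne_zero Subgroup.index_ne_zero_of_finite)
        ((Subgroup.one_lt_card_iff_ne_bot _).2 hO)
    set π := QuotientGroup.mk' O
    have hπ : Function.Surjective π := QuotientGroup.mk'_surjective O
    have hiso' : ∀ y' ∈ Subgroup.zpowers (π x), ∀ g' : G ⧸ O, g' * y' * g'⁻¹ ∈ P.mapSurjective hπ →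
        g' * y' * g'⁻¹ = y' := by
      rintro _ ⟨k, rfl⟩ g' hg'
      obtain ⟨g, rfl⟩ := hπ g'
      simp only [← map_zpow, ← map_inv, ← map_mul] at hg' ⊢
      set y := x ^ k with hy
      have hyP : y ∈ P := zpow_mem hx k
      obtain ⟨s, hs, hse⟩ := hg'
      set y' := g * y * g⁻¹ with hy'
      have hy'H : y' ∈ (P : Subgroup G) ⊔ O := by
        have h1 : s⁻¹ * y' ∈ O := by
          rw [← QuotientGroup.eq_one_iff]
          show π (s⁻¹ * y') = 1
          rw [map_mul, map_inv, hse, inv_mul_cancel]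
        have := Subgroup.mul_mem_sup hs h1
        rwa [mul_inv_cancel_left] at this
      set H := (P : Subgroup G) ⊔ O
      let PH : Sylow 2 H := P.subtype le_sup_left
      have hp2 : IsPGroup 2 (Subgroup.zpowers (⟨y', hy'H⟩ : H)) := by
        obtain ⟨m, hm⟩ := P.isPGroup' ⟨y, hyP⟩
        intro w
        refine ⟨m, ?_⟩
        obtain ⟨j, hj⟩ := w.2
        have hj' : ((w : H) : G) = y' ^ j := by rw [← hj]; rfl
        apply Subtype.ext
        apply Subtype.ext
        have hm' : y ^ 2 ^ m = 1 := by simpa using congrArg Subtype.val hm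
        show ((w : H) : G) ^ 2 ^ m = 1
        rw [hj', ← zpow_natCast, ← zpow_mul, mul_comm, zpow_mul, zpow_natCast, hy', conj_pow, hm']
        simp
      obtain ⟨R, hR⟩ := hp2.exists_le_sylow
      obtain ⟨m, hm⟩ := MulAction.exists_smul_eq H R PH
      have hmem : (m : G) * y' * (m : G)⁻¹ ∈ (P : Subgroup G) := by
        have : m * ⟨y', hy'H⟩ * m⁻¹ ∈ (PH : Subgroup H) := by
          rw [← hm, Sylow.coe_subgroup_smul]
          exact Subgroup.mem_map.2 ⟨_, hR (Subgroup.mem_zpowers _), rfl⟩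
        exact this
      obtain ⟨q, hq, o, ho, hqo⟩ := (Subgroup.mem_sup_of_normal_right (s := (P : Subgroup G))
        (t := O)).1 m.2
      have hmem' : o * g * y * (o * g)⁻¹ ∈ P := by
        have h1 := (P : Subgroup G).mul_mem ((P : Subgroup G).mul_mem
          ((P : Subgroup G).inv_mem hq) hmem) hq
        rw [← hqo, hy'] at h1
        have h2 : o * g * y * (o * g)⁻¹ ∈ (P : Subgroup G) := by simpa [mul_assoc] using h1
        exact h2
      have he := hiso y ⟨k, rfl⟩ _ hmem'
      have hπo : π o = 1 := (QuotientGroup.eq_one_iff o).2 ho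
      have he' := congrArg π he
      simp only [map_mul, map_inv, hπo, one_mul] at he'
      rw [hy', map_mul, map_mul, map_inv]
      exact he'
    have h3 := ih _ hlt (G ⧸ O) rfl (P.mapSurjective hπ) (π x) ⟨x, hx, rfl⟩ hiso' (π g)
    rw [← map_commutatorElement, oddCore, Cores.pPrimeCore_quotient_pPrimeCore_eq_bot,
      Subgroup.mem_bot] at h3
    exact (QuotientGroup.eq_one_iff _).1 h3
  obtain ⟨m, hm⟩ := P.isPGroup' ⟨x, hx⟩
  have hxm : x ^ 2 ^ m = 1 := by simpa using congrArg Subtype.val hm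
  obtain ⟨k, -, hk⟩ := (Nat.dvd_prime_pow Nat.prime_two).1 (orderOf_dvd_of_pow_eq_one hxm)
  rcases k with _ | k
  · rw [pow_zero, orderOf_eq_one_iff] at hk
    rw [hk, commutatorElement_one_left]
    exact one_mem _
  set z := x ^ 2 ^ k with hzdef
  have hz2 : orderOf z = 2 := by
    rw [hzdef, orderOf_pow' _ (by positivity), hk, Nat.gcd_eq_right (pow_dvd_pow 2 (Nat.le_succ k)),
      Nat.pow_div (Nat.le_succ k) two_pos, Nat.succ_sub (le_refl k), Nat.sub_self, pow_one]
  have hzP : z ∈ P := pow_mem hx _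
  obtain ⟨N, hN, hNodd, hNz⟩ := hz P z hz2 hzP (hiso z (pow_mem (Subgroup.mem_zpowers x) _))
  have hN1 : N = ⊥ := le_bot_iff.1 (hO ▸ Cores.le_pPrimeCore hN (Nat.coprime_two_right.2 hNodd))
  have hzc : z ∈ Subgroup.center G := Subgroup.mem_center_iff.2 fun a => by
    have h := hNz a
    rw [hN1, Subgroup.mem_bot, mul_inv_eq_one, mul_inv_eq_iff_eq_mul] at h
    exact h.symm
  set Z := Subgroup.zpowers z with hZ
  have hZc : Z ≤ Subgroup.center G := Subgroup.zpowers_le.2 hzc
  haveI : Z.Normal := ⟨fun a ha c => by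
    rw [Subgroup.mem_center_iff.1 (hZc ha) c, mul_inv_cancel_right]; exact ha⟩
  have hZ2 : Nat.card Z = 2 := by rw [hZ, Nat.card_zpowers, hz2]
  have hlt : Nat.card (G ⧸ Z) < Nat.card G := by
    rw [← Subgroup.index_eq_card, ← Subgroup.index_mul_card Z, hZ2]
    exact lt_mul_of_one_lt_right (Nat.pos_of_ne_zero Subgroup.index_ne_zero_of_finite) one_lt_two
  set π := QuotientGroup.mk' Z
  have hπ : Function.Surjective π := QuotientGroup.mk'_surjective Z
  have hiso' : ∀ y' ∈ Subgroup.zpowers (π x), ∀ g' : G ⧸ Z, g' * y' * g'⁻¹ ∈ P.mapSurjective hπ →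
      g' * y' * g'⁻¹ = y' := by
    rintro _ ⟨j, rfl⟩ g' hg'
    obtain ⟨a, rfl⟩ := hπ g'
    simp only [← map_zpow, ← map_inv, ← map_mul] at hg' ⊢
    obtain ⟨s, hs, hse⟩ := hg'
    refine congrArg π (hiso _ ⟨j, rfl⟩ a ?_)
    have h1 : s⁻¹ * (a * x ^ j * a⁻¹) ∈ Z := by
      rw [← QuotientGroup.eq_one_iff]
      show π (s⁻¹ * (a * x ^ j * a⁻¹)) = 1
      rw [map_mul, map_inv, hse, inv_mul_cancel]
    have h2 := (P : Subgroup G).mul_mem hs ((Subgroup.zpowers_le.2 hzP : Z ≤ (P : Subgroup G)) h1)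
    rwa [mul_inv_cancel_left] at h2
  have h3 := ih _ hlt (G ⧸ Z) rfl (P.mapSurjective hπ) (π x) ⟨x, hx, rfl⟩ hiso' (π g)
  rw [← map_commutatorElement] at h3
  set K := (oddCore (G ⧸ Z)).comap π with hK
  have hKZ : K ≤ Z := by
    refine le_of_central_extension hO hZc hZ2 (fun a ha => ?_) ?_
    · show π a ∈ oddCore (G ⧸ Z)
      rw [show π a = 1 from (QuotientGroup.eq_one_iff a).2 ha]
      exact one_mem _
    · have h1 : Z.relIndex K = Nat.card (K.map π) := by
        rw [← Subgroup.relIndex_bot_left, ← Subgroup.relIndex_comap, MonoidHom.comap_bot,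
          QuotientGroup.ker_mk']
      rw [h1, hK, Subgroup.map_comap_eq_self_of_surjective hπ]
      exact Nat.coprime_two_right.1 Cores.pPrimeCore_coprime
  have h4 : ⁅x, g⁆ ∈ Z := hKZ h3
  have h5 : g * x * g⁻¹ ∈ P := by
    have h6 := (P : Subgroup G).mul_mem ((P : Subgroup G).inv_mem
      ((Subgroup.zpowers_le.2 hzP : Z ≤ (P : Subgroup G)) h4)) hx
    have h7 : g * x * g⁻¹ ∈ (P : Subgroup G) := by simpa [commutatorElement_def, mul_assoc] using h6
    exact h7
  rw [hO, Subgroup.mem_bot, commutatorElement_eq_one_iff_mul_comm]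
  exact (mul_inv_eq_iff_eq_mul.1 (hiso x (Subgroup.mem_zpowers x) g h5)).symm

/-- The centre of the 2-fusion system of `G` on `S` is `S ∩ Z*(G)`. -/
theorem center_eq_of_zStar (hz : ZStarHyp.{u}) {G : Type u} [Group G] [Finite G] (S : Sylow 2 G) :
    (groupFusionSystem (S : Subgroup G)).center = (S : Subgroup G) ⊓
      (Subgroup.center (G ⧸ oddCore G)).comap (QuotientGroup.mk' (oddCore G)) := by
  haveI : Fact (Nat.Prime 2) := ⟨Nat.prime_two⟩
  set F := groupFusionSystem (S : Subgroup G)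
  have hF : F.IsSaturated 2 := saturated_of_realized (groupFusionSystem_isRealizedBy _) S
    (Subgroup.range_subtype _).symm
  refine le_antisymm (sSup_le fun Q hQ => ?_) (le_sSup ?_)
  · obtain ⟨hQS, h⟩ := (central_iff_singletons S.isPGroup' hF Q).1 hQ
    refine le_inf hQS fun x hxQ => Subgroup.mem_center_iff.2 fun w => ?_
    obtain ⟨g, rfl⟩ := QuotientGroup.mk'_surjective (oddCore G) w
    have hc := commutator_mem_oddCore_of_isolated hz S (hQS hxQ) (fun y hy a ha => by
      have hyQ : y ∈ Q := Subgroup.zpowers_le.2 hxQ hy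
      refine h y hyQ _ ⟨conjHom (Subgroup.zpowers y) a,
        ⟨Subgroup.zpowers_le.2 (hQS hyQ), fun w => ?_, a, fun _ => rfl⟩, rfl⟩
      obtain ⟨j, hj⟩ := w.2
      show a * (w : G) * a⁻¹ ∈ (S : Subgroup G)
      rw [← hj, ← conj_zpow]
      exact zpow_mem ha j) g
    have h1 := (QuotientGroup.eq_one_iff _).2 hc
    rw [← QuotientGroup.mk'_apply, map_commutatorElement,
      commutatorElement_eq_one_iff_mul_comm] at h1
    exact h1.symm
  · refine (central_iff_singletons S.isPGroup' hF _).2 ⟨inf_le_left, ?_⟩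
    rintro x ⟨hxS, hxc⟩ y ⟨φ, ⟨-, hφS, a, ha⟩, rfl⟩
    have hy := hφS ⟨x, Subgroup.mem_zpowers x⟩
    rw [ha] at hy ⊢
    have h1 : a * x * a⁻¹ * x⁻¹ ∈ oddCore G := by
      rw [← QuotientGroup.eq_one_iff, ← QuotientGroup.mk'_apply]
      simp only [map_mul, map_inv]
      rw [Subgroup.mem_center_iff.1 hxc, mul_inv_cancel_right, mul_inv_cancel]
    have h2 : a * x * a⁻¹ * x⁻¹ ∈ (S : Subgroup G) :=
      (S : Subgroup G).mul_mem hy ((S : Subgroup G).inv_mem hxS)
    obtain ⟨j, hj⟩ := IsPGroup.iff_card.1 S.isPGroup'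
    have h3 : (S : Subgroup G) ⊓ oddCore G = ⊥ := disjoint_iff.1 (Subgroup.disjoint_of_coprime_natCard (by
      rw [hj]
      exact Cores.pPrimeCore_coprime.symm.pow_left j))
    have h4 : a * x * a⁻¹ * x⁻¹ = 1 := Subgroup.mem_bot.1 (h3 ▸ ⟨h2, h1⟩)
    exact mul_inv_eq_one.1 h4

end Cfsg.Agent.FusionSys
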